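import Cfsg.Agent.H64.BorelTits
import Cfsg.Agent.H38.StRG
import Cfsg.Agent.H38.Simple

/-! Iterated cores of a maximal parabolic subgroup and its conjugate by the remaining fundamental reflection. -/

set_option autoImplicit false

namespace Cfsg.Agent.H64

open Cfsg.Agent.H38

/-- the core of `Y` in `M` -/
def core {G : Type*} [Group G] (M Y : Subgroup G) : Subgroup G := (Y.subgroupOf M).normalCore.map M.subtype

theorem mem_core {G : Type*} [Group G] {M Y : Subgroup G} {x : G} :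
    x ∈ core M Y ↔ x ∈ M ∧ ∀ m ∈ M, m * x * m⁻¹ ∈ Y :=
  ⟨by rintro ⟨x, h, rfl⟩; exact ⟨x.2, fun m hm => h ⟨m, hm⟩⟩, fun h => ⟨⟨x, h.1⟩, fun m => h.2 m m.2, rfl⟩⟩

theorem core_le {G : Type*} [Group G] {M Y : Subgroup G} : core M Y ≤ Y := fun x hx => by
  simpa using (mem_core.1 hx).2 1 (one_mem _)

theorem core_conj {G : Type*} [Group G] {M Y : Subgroup G} {m x : G} (hm : m ∈ M) (hx : x ∈ core M Y) :
    m * x * m⁻¹ ∈ core M Y :=
  mem_core.2 ⟨mul_mem (mul_mem hm (mem_core.1 hx).1) (inv_mem hm), fun m' hm' => by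
    simpa [mul_assoc] using (mem_core.1 hx).2 _ (mul_mem hm' hm)⟩

theorem mem_map_conj {G : Type*} [Group G] {M : Subgroup G} {g x : G} (hg : g * g = 1) :
    x ∈ M.map (MulAut.conj g).toMonoidHom ↔ g * x * g⁻¹ ∈ M := by
  rw [Subgroup.mem_map_equiv, MulAut.conj_symm_apply, inv_eq_of_mul_eq_one_right hg]

/-- the sequence of iterated cores -/
def cores {G : Type*} [Group G] (M : Subgroup G) (g : G) : ℕ → Subgroup G
  | 0 => M
  | i + 1 => core M (cores M g i ⊓ (cores M g i).map (MulAut.conj g).toMonoidHom)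

theorem map_core {G : Type*} [Group G] (M Y : Subgroup G) {g : G} (hg : g * g = 1) :
    (core M (Y ⊓ Y.map (MulAut.conj g).toMonoidHom)).map (MulAut.conj g).toMonoidHom =
      core (M.map (MulAut.conj g).toMonoidHom) (Y ⊓ Y.map (MulAut.conj g).toMonoidHom) := by
  have h : ∀ z, g * (g * z) = z := fun z => by rw [← mul_assoc, hg, one_mul]
  ext x
  simp only [mem_core, Subgroup.mem_inf, mem_map_conj hg, inv_eq_of_mul_eq_one_right hg]
  refine and_congr_right fun _ => ⟨fun h1 m hm => ?_, fun h1 m hm => ?_⟩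
  · simpa [mul_assoc, h, hg, inv_eq_of_mul_eq_one_right hg, and_comm] using h1 _ hm
  · simpa [mul_assoc, h, hg, inv_eq_of_mul_eq_one_right hg, and_comm] using
      h1 (g * m * g) (by simpa [mul_assoc, h, hg] using hm)

variable {ι R : Type} [Fintype ι] [DecidableEq ι] {P : RS ι R} {F : Type*} [Field F] {G : Type*} [Group G]
  [Fintype R] {X : RG P F G}

theorem le_PJ_of_B_le {M : Subgroup G} (hB : X.B ≤ M) (hM : M ≤ X.grp) : M ≤ X.PJ {i | X.ns i ∈ M} := by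
  have key : ∀ k n w, P.inv w = k → X.Rep n w → n ∈ M → w ∈ P.WJ {i | X.ns i ∈ M} := by
    intro k
    induction k using Nat.strong_induction_on with
    | _ k ih =>
    intro n w hk hn hnM
    by_cases h : ∀ j, P.Pos (w⁻¹ (P.sp j))
    · rw [inv_eq_one.1 (P.eq_one_of_pos' (inv_mem hn.mem_W) h)]; exact one_mem _
    obtain ⟨j, hj⟩ := not_forall.1 h
    have h1 := X.x_mem_of_conj hn.acts hnM (r := P.neg (w⁻¹ (P.sp j)))
      (fun s => hB (X.x_mem_B (P.pos_neg_iff.2 hj) s))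
    rw [P.W_neg hn.mem_W, Equiv.Perm.coe_inv, Equiv.apply_symm_apply] at h1
    have h2 : X.ns j ∈ M :=
      mul_mem (mul_mem (hB (X.x_mem_B (P.pos_sp j) _)) (h1 _)) (hB (X.x_mem_B (P.pos_sp j) _))
    exact (mul_mem_cancel_left (P.σ_mem_WJ h2)).1 (ih _ (by rw [← hk, RS.inv_σ_mul' hn.mem_W hj]; omega) _ _ rfl
      ((X.rep_ns j).mul hn) (mul_mem h2 hnM))
  intro g hg
  obtain ⟨b, hb, n, w, hn, u, hu, rfl⟩ := X.exists_bruhat (hM hg)
  have hu' := X.U_le_B (X.Um_le w hu)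
  exact X.mem_PJ_iff.2 ⟨b, hb, n, w, hn, key _ n w rfl hn
    (by rwa [mul_mem_cancel_right (hB hu'), mul_mem_cancel_left (hB hb)] at hg), u, hu', rfl⟩

variable (hX : X.Faithful)
include hX

theorem mem_WJ_of_inC {g : G} {w : Equiv.Perm R} (h : X.InC g w) {L : Set ι} (hg : g ∈ X.PJ L) : w ∈ P.WJ L := by
  obtain ⟨w', h1, h2⟩ := RG.mem_PJ_iff_inC.1 hg
  rwa [hX.inC_unique h h2]

theorem n_not_mem_PJ {a : ι} {L : Set ι} (ha : a ∉ L) {c : F} (hc : c ≠ 0) : X.n (P.sp a) c ∉ X.PJ L := fun h => by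
  have := P.WJ_cf (mem_WJ_of_inC hX (X.rep_n a hc).inC h) (P.sp a) ha
  rw [P.σ_sp, P.cf_neg, P.cf_sp] at this
  simp at this

theorem eq_zero_of_conj_mem_PJ {a : ι} {L : Set ι} (ha : a ∉ L) {t : F}
    (h : X.ns a * X.x (P.sp a) t * (X.ns a)⁻¹ ∈ X.PJ L) : t = 0 := by
  obtain ⟨c, hc, e⟩ := (X.acts_ns a).exists_conj (P.sp a)
  rw [e, P.σ_sp] at h
  by_contra ht
  refine n_not_mem_PJ hX ha (c := -(c * t)⁻¹) (by simp [hc, ht]) (mul_mem (mul_mem ?_ (by simpa using h)) ?_) <;>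
    exact X.B_le_PJ _ (X.x_mem_B (P.pos_sp a) _)

theorem isCoatom_PJ (hG : X.grp = ⊤) (a : ι) : IsCoatom (X.PJ {a}ᶜ) := by
  refine ⟨fun h => n_not_mem_PJ hX (L := {a}ᶜ) (a := a) (by simp) one_ne_zero (h.ge trivial), fun M hM => ?_⟩
  have h1 := le_PJ_of_B_le ((X.B_le_PJ _).trans hM.le) (hG.ge.trans' le_top)
  by_cases h : X.ns a ∈ M
  · rw [eq_top_iff, ← hG, ← X.PJ_univ]
    refine sup_le ((X.B_le_PJ _).trans hM.le) ((Subgroup.closure_le _).2 ?_)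
    rintro _ ⟨i, -, rfl⟩
    by_cases hi : i = a
    exacts [hi ▸ h, hM.le (X.ns_mem_PJ hi)]
  · refine absurd (h1.trans (sup_le (X.B_le_PJ _) ((Subgroup.closure_le _).2 ?_))) hM.not_ge
    rintro _ ⟨i, hi, rfl⟩
    exact X.ns_mem_PJ fun e => h (by rw [← show i = a from e]; exact hi)

theorem C_eq_zero {i j : ι} (hij : j ≠ i) {L : Set ι} (hj : j ∉ L) {b : G} (hb : b ∈ X.B)
    (h : X.ns j * b * ((X.ns i)⁻¹ * (X.ns j)⁻¹) ∈ X.PJ L) : P.C j i = 0 := by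
  have h1 := (X.rep_ns i).inv.mul (X.rep_ns j).inv
  rw [P.σ_inv, P.σ_inv] at h1
  rcases X.ns_mul_B_mul h1 j hb with ⟨b₁, h₁, b₂, h₂, e⟩ | ⟨b₁, h₁, b₂, h₂, e⟩
  · have := P.WJ_cf (mem_WJ_of_inC hX ⟨b₁, h₁, _, (X.rep_ns j).mul h1, b₂, h₂, e⟩ h) (P.σ j (P.sp i)) hj
    simp only [Equiv.Perm.mul_apply, P.σ_σ, P.σ_sp, P.σ_neg, P.cf_neg, Pi.neg_apply, P.cf_σ_self, P.A_sp,
      P.cf_sp, Pi.single_eq_of_ne hij] at this
    omega
  · have := P.WJ_cf (mem_WJ_of_inC hX ⟨b₁, h₁, _, h1, b₂, h₂, e⟩ h) (P.sp j) hj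
    simp [Equiv.Perm.mul_apply, P.cf_σ_ne hij, P.σ_sp, P.cf_neg, P.cf_sp] at this

theorem le_B_of_normal (hP : P.Conn) {a : ι} {N : Subgroup G} (h1 : N ≤ X.PJ {a}ᶜ)
    (h2 : ∀ y ∈ N, X.ns a * y * (X.ns a)⁻¹ ∈ X.PJ {a}ᶜ) (h3 : ∀ m ∈ X.PJ {a}ᶜ, ∀ y ∈ N, m * y * m⁻¹ ∈ N) :
    N ≤ X.B := by
  have h4 := le_PJ_of_B_le (M := X.B ⊔ N) le_sup_left (sup_le X.B_le_grp (h1.trans (X.PJ_le_grp _)))
  set K := {i | X.ns i ∈ X.B ⊔ N}
  rcases K.eq_empty_or_nonempty with h | h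
  · rw [h, RG.PJ, Set.image_empty, Subgroup.closure_empty, sup_bot_eq] at h4
    exact le_sup_right.trans h4
  obtain ⟨j, hj, i, hi, hC⟩ := hP Kᶜ ⟨a, fun h => n_not_mem_PJ hX (L := {a}ᶜ) (a := a) (by simp) one_ne_zero
    (sup_le (X.B_le_PJ _) h1 h)⟩ (by rwa [compl_compl])
  have h5 : (X.ns i)⁻¹ ∈ X.B ⊔ N := inv_mem (not_not.1 hi)
  rw [← SetLike.mem_coe, Subgroup.coe_mul_of_left_le_normalizer_right _ _ fun b hb y => ⟨h3 b (X.B_le_PJ _ hb) y,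
    fun h => by simpa [mul_assoc] using h3 _ (inv_mem (X.B_le_PJ _ hb)) _ h⟩] at h5
  obtain ⟨b, hb, y, hy, e⟩ := h5
  have h6 : X.ns j * b⁻¹ * ((X.ns i)⁻¹ * (X.ns j)⁻¹) = X.ns j * y * (X.ns j)⁻¹ := by rw [← e]; group
  have hij : j ≠ i := fun e => hi (e ▸ hj)
  by_cases ha : j = a
  · exact absurd (C_eq_zero hX hij (L := {a}ᶜ) (by simp [ha]) (inv_mem hb) (by rw [h6, ha]; exact h2 y hy)) hC
  · exact absurd (C_eq_zero hX hij hj (inv_mem hb)
      (by rw [h6]; exact h4 (Subgroup.mem_sup_right (h3 _ (X.ns_mem_PJ ha) y hy)))) hC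

theorem le_UJ_of_normal {J : Set ι} {N : Subgroup G} (h1 : N ≤ X.U) (h3 : ∀ m ∈ X.PJ J, ∀ y ∈ N, m * y * m⁻¹ ∈ N) :
    N ≤ X.UJ J := fun y hy => by
  obtain ⟨w, hw, h⟩ := P.exists_longest J
  obtain ⟨n, hn⟩ := X.exists_rep (P.WJ_le J hw)
  obtain ⟨u, hu, v, hv, rfl⟩ := X.exists_Up_mul_Um w (h1 hy)
  have h4 := h1 (h3 n (hn.mem_PJ hw) _ hy)
  rw [show n * (u * v) * n⁻¹ = n * u * n⁻¹ * (n * v * n⁻¹) by group, mul_mem_cancel_left (hn.conj_Up hu)] at h4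
  have h5 := hX.eq_one_of_mem_B_V (X.U_le_B h4) (hn.conj_Um hv)
  rw [mul_inv_eq_one, mul_eq_left] at h5
  rw [h5, mul_one]
  exact X.US_mono (fun r hr => And.intro hr.1 fun h' => h r hr.1 h' hr.2) hu

omit hX [Fintype R] in
theorem cl_lev (a : ι) {i : ℤ} (hi : 0 < i) {T : Set R} (hT : ∀ r ∈ T, P.cf r a = i) :
    P.Cl (htL ι) ({r | i ≤ P.cf r a} \ T) := by
  refine ⟨?_, fun r hr => P.ht_pos (P.pos_of_coeff (hi.trans_le hr.1))⟩
  rintro r hr s hs k ⟨b, c, hb, hc, e⟩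
  have h1 : P.cf k a = b * P.cf r a + c * P.cf s a := congrFun e a
  have h2 : i ≤ P.cf r a := hr.1
  have h3 : i ≤ P.cf s a := hs.1
  have h4 : i < P.cf k a := by nlinarith
  exact ⟨h4.le, fun h => h4.ne' (hT k h)⟩

theorem le_lev_succ {a : ι} {i : ℤ} (hi : 0 < i) {N : Subgroup G} (h1 : N ≤ X.US {r | i ≤ P.cf r a})
    (h3 : ∀ j ≠ a, ∀ y ∈ N, (X.ns j)⁻¹ * y * X.ns j ∈ N)
    (hb : ∀ r, P.cf r a = i → (∀ j ≠ a, P.A j r ≤ 0) → N ≤ X.US ({r | i ≤ P.cf r a} \ {r})) :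
    N ≤ X.US {r | i + 1 ≤ P.cf r a} := by
  have key : ∀ (k : ℕ) r, P.ht r < k → P.cf r a = i → N ≤ X.US ({r | i ≤ P.cf r a} \ {r}) := by
    intro k
    induction k with
    | zero => exact fun r h hr => absurd (P.ht_pos (P.pos_of_coeff (hi.trans_eq hr.symm))) (by omega)
    | succ k ih =>
      intro r hk hr
      by_contra h
      obtain ⟨j, hj, h⟩ : ∃ j ≠ a, 0 < P.A j r := by
        by_contra h'
        exact h (hb r hr fun j hj => not_lt.1 fun h => h' ⟨j, hj, h⟩)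
      refine ‹¬ _› fun y hy => ?_
      have := (X.acts_ns j).conj_mem (T := {r | i ≤ P.cf r a} \ {r}) (fun s hs => ⟨by
        rw [Set.mem_ofPred_eq, P.cf_σ_ne hj.symm]; exact hs.1, fun e => hs.2 (by rw [← e, P.σ_σ]; rfl)⟩)
        (ih (P.σ j r) (by rw [P.ht_σ]; omega) (by rw [P.cf_σ_ne hj.symm, hr]) (h3 j hj y hy))
      simpa [mul_assoc] using this
  have h4 : ∀ T : Set R, T.Finite → (∀ r ∈ T, P.cf r a = i) → N ≤ X.US ({r | i ≤ P.cf r a} \ T) := by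
    intro T hT
    induction T, hT using Set.Finite.induction_on with
    | empty => exact fun _ => by rwa [Set.sdiff_empty]
    | @insert r T _ _ ih =>
      intro h y hy
      rw [Set.insert_eq, ← Set.sdiff_inter_sdiff]
      exact mem_US_inter hX.sep P.cl_pos (cl_lev a hi (by simpa using h r (by simp)))
        (cl_lev a hi fun s hs => h s (by simp [hs])) (fun s hs => P.pos_of_coeff (hi.trans_le hs.1))
        (fun s hs => P.pos_of_coeff (hi.trans_le hs.1))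
        (key (P.ht r + 1).toNat r (by omega) (h r (by simp)) hy) (ih (fun s hs => h s (by simp [hs])) hy)
  exact (h4 {r | P.cf r a = i} (Set.toFinite _) fun _ h => h).trans
    (X.US_mono fun r hr => lt_of_le_of_ne hr.1 (Ne.symm hr.2))

omit hX [Fintype R] in
theorem PJ_conj_lev (a : ι) {i : ℤ} (hi : 0 < i) :
    X.PJ {a}ᶜ ≤ Subgroup.normalizer (X.US {r | i ≤ P.cf r a} : Set G) := by
  refine sup_le (sup_le (X.US_le_normalizer fun r hr s hs => ⟨P.ne_neg_of_pos hr (P.pos_of_coeff (hi.trans_le hs)),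
    ?_⟩) (X.H_le_normalizer _)) ((Subgroup.closure_le _).2 ?_)
  · rintro k ⟨b, c, hb, hc, e⟩
    have h1 : P.cf k a = b * P.cf r a + c * P.cf s a := congrFun e a
    have h2 : 0 ≤ P.cf r a := hr a
    have h3 : i ≤ P.cf s a := hs
    change i ≤ P.cf k a
    nlinarith
  · rintro _ ⟨j, hj, rfl⟩
    exact (X.acts_ns j).mem_normalizer (P.σ_mem_W j) fun s => by
      rw [Set.mem_ofPred_eq, P.cf_σ_ne (Ne.symm hj)]; rfl

variable (hH : X.H = ⊥) (a : ι)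
include hH

omit hX [Fintype R] in
theorem ns_sq : X.ns a * X.ns a = 1 := hH.le (X.n_mul_n_mem_H _ one_ne_zero one_ne_zero)

omit hX [Fintype R] in
theorem lev_le_cores (h : ∀ r, 1 < P.cf r a → P.A a r ≤ 1) (i : ℕ) :
    X.US {r | (i : ℤ) + 1 ≤ P.cf r a} ≤ cores (X.PJ {a}ᶜ) (X.ns a) i := by
  have h0 : ∀ i : ℕ, X.US {r | (i : ℤ) + 1 ≤ P.cf r a} ≤ X.PJ {a}ᶜ := fun i =>
    (X.US_mono fun r hr => P.pos_of_coeff (i := a) (by have : (i : ℤ) + 1 ≤ P.cf r a := hr; omega)).trans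
      (X.U_le_B.trans (X.B_le_PJ _))
  induction i with
  | zero => exact h0 0
  | succ i ih =>
    refine fun y hy => mem_core.2 ⟨h0 _ hy, fun m hm => ?_⟩
    have h1 := (PJ_conj_lev a (by omega) hm y).1 hy
    refine ⟨ih (X.US_mono (fun r hr => ?_) h1), (mem_map_conj (ns_sq hH a)).2
      (ih ((X.acts_ns a).conj_mem (fun r hr => ?_) h1))⟩ <;>
      simp only [Set.mem_ofPred_eq, P.cf_σ_self] at hr ⊢
    · omega
    · have := h r (by omega); omega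

theorem cores_le_lev (hP : P.Conn) (h : ∀ r, P.cf r a = 1 → (∀ j ≠ a, P.A j r ≤ 0) → r = P.sp a) (i : ℕ) :
    cores (X.PJ {a}ᶜ) (X.ns a) (i + 1) ≤ X.US {r | (i : ℤ) + 1 + 1 ≤ P.cf r a} := by
  have h0 : ∀ i, ∀ j ≠ a, ∀ y ∈ cores (X.PJ {a}ᶜ) (X.ns a) (i + 1),
      (X.ns j)⁻¹ * y * X.ns j ∈ cores (X.PJ {a}ᶜ) (X.ns a) (i + 1) := fun i j hj y hy => by
    have := core_conj (inv_mem (X.ns_mem_PJ (J := {a}ᶜ) hj)) hy
    rwa [inv_inv] at this
  have h1 : ∀ i, ∀ y ∈ cores (X.PJ {a}ᶜ) (X.ns a) (i + 1), y ∈ cores (X.PJ {a}ᶜ) (X.ns a) i ∧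
      X.ns a * y * (X.ns a)⁻¹ ∈ cores (X.PJ {a}ᶜ) (X.ns a) i := fun i y hy =>
    ⟨(core_le hy).1, (mem_map_conj (ns_sq hH a)).1 (core_le hy).2⟩
  induction i with
  | zero =>
    have h2 := le_B_of_normal hX hP (N := cores (X.PJ {a}ᶜ) (X.ns a) 1) (fun y hy => (h1 0 y hy).1)
      (fun y hy => (h1 0 y hy).2) fun m hm y => core_conj hm
    rw [RG.B, hH, sup_bot_eq] at h2
    have h3 := (le_UJ_of_normal hX h2 fun m hm y => core_conj hm).trans (X.US_mono (T := {r | 1 ≤ P.cf r a})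
      fun r hr => lt_of_le_of_ne (hr.1 a) fun e => hr.2 fun j hj => by rw [not_not.1 hj, ← e])
    refine le_lev_succ hX one_pos h3 (h0 0) fun r hr hr' y hy => ?_
    obtain rfl := h r hr hr'
    obtain ⟨u, hu, v, hv, rfl⟩ := X.exists_mul_of_mem_US (S₁ := {r | 1 ≤ P.cf r a} \ {P.sp a}) (S₂ := {P.sp a})
      (by simpa using cl_lev (P := P) a one_pos (T := ∅) (by simp)) (by simp [P.cf_sp]) (h3 hy)
    obtain ⟨t, rfl⟩ := X.mem_US_singleton.1 hv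
    have h4 := (h1 0 _ hy).2
    rw [show X.ns a * (u * X.x (P.sp a) t) * (X.ns a)⁻¹ = X.ns a * u * (X.ns a)⁻¹ *
      (X.ns a * X.x (P.sp a) t * (X.ns a)⁻¹) by group, cores, mul_mem_cancel_left (X.B_le_PJ _ (X.U_le_B
      ((X.acts_ns a).conj_mem (fun r hr => P.pos_σ (P.pos_of_coeff (one_pos.trans_le hr.1)) hr.2) hu)))] at h4
    rwa [eq_zero_of_conj_mem_PJ hX (by simp) h4, X.x_zero, mul_one]
  | succ i ih =>
    have h2 : ∀ r, (i : ℤ) + 1 + 1 ≤ P.cf r a → P.Pos r ∧ P.Pos (P.σ a r) := fun r hr =>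
      ⟨P.pos_of_coeff (i := a) (by omega), P.pos_σ (P.pos_of_coeff (i := a) (by omega))
        (by rintro rfl; simp [P.cf_sp] at hr; omega)⟩
    have h3 := cl_lev (P := P) a (i := i + 1 + 1) (by omega) (T := ∅) (by simp)
    rw [Set.sdiff_empty] at h3
    refine le_lev_succ hX (by omega) (fun y hy => ih (h1 _ y hy).1) (h0 _) fun r hr hr' y hy => ?_
    have h4 := (X.acts_ns a).conj_mem' (P.σ_mem_W a) (S := {s | (i : ℤ) + 1 + 1 ≤ P.cf (P.σ a s) a})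
      (fun _ h => h) (ih (h1 _ y hy).2)
    rw [show (X.ns a)⁻¹ * (X.ns a * y * (X.ns a)⁻¹) * X.ns a = y by group] at h4
    refine X.US_mono (fun s hs => And.intro hs.1 ?_) (mem_US_inter hX.sep P.cl_pos h3
      (T := {s | (i : ℤ) + 1 + 1 ≤ P.cf (P.σ a s) a})
      ⟨fun r hr s hs k hk => h3.cl _ hr _ hs _ (hk.map (P.σ_mem_W a)),
        fun r hr => P.ht_pos (by simpa [P.σ_σ] using (h2 _ hr).2)⟩ (fun r hr => (h2 r hr).1)
      (fun r hr => by simpa [P.σ_σ] using (h2 _ hr).2) (ih (h1 _ y hy).1) h4)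
    rintro rfl
    obtain ⟨j, hj⟩ := P.descent s (h2 s hs.1).1
    obtain rfl : j = a := by_contra fun e => (hr' j e).not_gt hj
    have h5 := hs.2
    simp only [Set.mem_ofPred_eq, P.cf_σ_self, RS.A] at h5
    push_cast at hr
    omega

end Cfsg.Agent.H64
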