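import Mathlib

/-! Cyclotomic factors of characteristic polynomials of integer matrices of finite order. -/

set_option autoImplicit false

namespace Cfsg.Agent.H64

open Polynomial Matrix

/-- A monic integer polynomial whose complex roots are roots of unity: a prime dividing a value of it
divides the value of one of its cyclotomic factors. -/
theorem exists_cyclotomic_dvd {N : ℕ} (hN : N ≠ 0) {p : ℕ} (hp : p.Prime) (q : ℤ) :
    ∀ (n : ℕ) (f : ℤ[X]), f.natDegree = n → f.Monic →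
      (∀ z : ℂ, aeval z f = 0 → z ^ N = 1) → (p : ℤ) ∣ f.eval q →
      ∃ d, 0 < d ∧ cyclotomic d ℤ ∣ f ∧ (p : ℤ) ∣ (cyclotomic d ℤ).eval q := by
  intro n
  induction n using Nat.strong_induction_on with
  | _ n ih =>
  intro f hn hm hr hd
  rcases Nat.eq_zero_or_pos n with h0 | h0
  · subst h0
    rw [hm.natDegree_eq_zero.1 hn, eval_one] at hd
    exact absurd (Int.natCast_dvd_natCast.1 (by exact_mod_cast hd)) hp.not_dvd_one
  have hdeg : (f.map (algebraMap ℤ ℂ)).degree ≠ 0 := by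
    rw [hm.degree_map, degree_eq_natDegree hm.ne_zero, hn]; exact_mod_cast h0.ne'
  obtain ⟨z, hz⟩ := IsAlgClosed.exists_root _ hdeg
  have hz' : aeval z f = 0 := by rw [aeval_def, ← eval_map]; exact hz
  have hfin : IsOfFinOrder z := isOfFinOrder_iff_pow_eq_one.2 ⟨N, Nat.pos_of_ne_zero hN, hr z hz'⟩
  have hpos := hfin.orderOf_pos
  have hprim : IsPrimitiveRoot z (orderOf z) := IsPrimitiveRoot.orderOf z
  have hdvd : cyclotomic (orderOf z) ℤ ∣ f := by
    rw [cyclotomic_eq_minpoly hprim hpos]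
    exact minpoly.isIntegrallyClosed_dvd (hprim.isIntegral hpos) hz'
  obtain ⟨g, hg⟩ := hdvd
  have hgm : g.Monic := (cyclotomic.monic _ ℤ).of_mul_monic_left (hg ▸ hm)
  rw [hg, eval_mul] at hd
  rcases (Nat.prime_iff_prime_int.1 hp).dvd_or_dvd hd with h | h
  · exact ⟨_, hpos, ⟨g, hg⟩, h⟩
  · have hlt : g.natDegree < n := by
      rw [← hn, hg, (cyclotomic.monic _ ℤ).natDegree_mul hgm, natDegree_cyclotomic]
      have := Nat.totient_pos.2 hpos
      omega
    obtain ⟨d, hd0, hd1, hd2⟩ := ih _ hlt g rfl hgm (fun w hw => hr w (by rw [hg, map_mul, hw, mul_zero])) h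
    exact ⟨d, hd0, hg ▸ hd1.mul_left _, hd2⟩

/-- If `p ∣ Φ_d(q)` then `d` is a power of `p` times the order of `q` mod `p`. -/
theorem eq_of_dvd_cyclotomic {p : ℕ} [Fact p.Prime] {q : ℤ} {d : ℕ} (hd : 0 < d)
    (h : (p : ℤ) ∣ (cyclotomic d ℤ).eval q) : ∃ k, d = p ^ k * orderOf (q : ZMod p) := by
  obtain ⟨k, m, hm, rfl⟩ := Nat.exists_eq_pow_mul_and_not_dvd hd.ne' p (Fact.out : p.Prime).ne_one
  have : NeZero (m : ZMod p) := ⟨fun h0 => hm ((ZMod.natCast_eq_zero_iff m p).1 h0)⟩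
  have h1 : IsRoot (cyclotomic (p ^ k * m) (ZMod p)) (q : ZMod p) := by
    rw [IsRoot.def, ← map_cyclotomic_int, eval_intCast_map]
    exact (ZMod.intCast_zmod_eq_zero_iff_dvd _ p).2 h
  rw [isRoot_cyclotomic_prime_pow_mul_iff_of_charP] at h1
  exact ⟨k, by rw [← h1.eq_orderOf]⟩

theorem cyclotomic_four' : cyclotomic 4 ℤ = X ^ 2 + 1 := by
  rw [show 4 = 2 * 2 from rfl, ← cyclotomic_expand_eq_cyclotomic Nat.prime_two dvd_rfl, cyclotomic_two]
  simp

theorem cyclotomic_twelve' : cyclotomic 12 ℤ = X ^ 4 - X ^ 2 + 1 := by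
  rw [show 12 = 6 * 2 from rfl, ← cyclotomic_expand_eq_cyclotomic Nat.prime_two (by norm_num), cyclotomic_six]
  simp [← pow_mul]

theorem exists_cyclotomic_order {N : ℕ} (hN : N ≠ 0) {p : ℕ} [Fact p.Prime] {q : ℤ} {f : ℤ[X]} (hm : f.Monic)
    (hr : ∀ z : ℂ, aeval z f = 0 → z ^ N = 1) (h : (p : ℤ) ∣ f.eval q) {m : ℕ} (ho : orderOf (q : ZMod p) = m)
    (hlt : f.natDegree < Nat.totient (p * m)) : cyclotomic m ℤ ∣ f := by
  obtain ⟨d, hd0, hd1, hd2⟩ := exists_cyclotomic_dvd hN Fact.out q _ f rfl hm hr h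
  obtain ⟨k, hk⟩ := eq_of_dvd_cyclotomic hd0 hd2
  rw [ho] at hk
  rcases k with _ | k
  · rwa [hk, pow_zero, one_mul] at hd1
  · have h1 := natDegree_le_of_dvd hd1 hm.ne_zero
    rw [natDegree_cyclotomic] at h1
    have h2 : p * m ∣ d := hk ▸ Nat.mul_dvd_mul_right (dvd_pow_self p k.succ_ne_zero) m
    have := Nat.le_of_dvd (Nat.totient_pos.2 hd0) (Nat.totient_dvd_of_dvd h2)
    omega

variable {n : Type*} [Fintype n] [DecidableEq n]

theorem root_charpoly_pow {M : Matrix n n ℤ} {N : ℕ} (hM : M ^ N = 1) (z : ℂ) (hz : aeval z M.charpoly = 0) :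
    z ^ N = 1 := by
  set A := M.map (Int.castRingHom ℂ) with hA
  have h1 : IsRoot A.charpoly z := by
    rw [hA, charpoly_map, IsRoot.def, eval_map]; exact hz
  have h2 : A ^ N = 1 := by
    have := congrArg (RingHom.mapMatrix (Int.castRingHom ℂ)) hM
    rwa [map_pow, map_one] at this
  rw [IsRoot.def, eval_charpoly, ← exists_mulVec_eq_zero_iff] at h1
  obtain ⟨v, hv, h⟩ := h1
  have h3 : A *ᵥ v = z • v := by
    rw [sub_mulVec, sub_eq_zero] at h
    rw [← h]; ext i; simp [scalar, mulVec_diagonal]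
  have h4 : ∀ k : ℕ, A ^ k *ᵥ v = z ^ k • v := fun k => by
    induction k with
    | zero => simp
    | succ k ih => rw [pow_succ', ← mulVec_mulVec, ih, mulVec_smul, h3, smul_smul, pow_succ]
  have h5 := h4 N
  rw [h2, one_mulVec] at h5
  by_contra hne
  apply hv
  have : (z ^ N - 1) • v = 0 := by rw [sub_smul, one_smul, ← h5, sub_self]
  exact (smul_eq_zero.1 this).resolve_left (sub_ne_zero.2 hne)

theorem orderOf_two_thirteen : orderOf ((2 : ℤ) : ZMod 13) = 12 := by
  rw [orderOf_eq_iff (by norm_num)]; decide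

theorem orderOf_two_five : orderOf ((2 : ℤ) : ZMod 5) = 4 := by
  rw [orderOf_eq_iff (by norm_num)]; decide

/-- An integer matrix of finite order and size `7` whose characteristic polynomial takes a value divisible by `65`
at `2`. -/
theorem charpoly_of_65 (hn : Fintype.card n = 7) {M : Matrix n n ℤ} {N : ℕ} (hN : N ≠ 0) (hM : M ^ N = 1)
    (h : 65 ∣ M.charpoly.eval 2) : ∃ e : ℤ, e * e = 1 ∧ M.charpoly = (X ^ 6 + 1) * (X - C e) := by
  have : Fact (Nat.Prime 13) := ⟨by norm_num⟩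
  have : Fact (Nat.Prime 5) := ⟨by norm_num⟩
  have hr := root_charpoly_pow hM
  have hm := M.charpoly_monic
  have hdeg : M.charpoly.natDegree = 7 := by rw [charpoly_natDegree_eq_dim, hn]
  have o13 := orderOf_two_thirteen
  have o5 := orderOf_two_five
  obtain ⟨g, hg⟩ := exists_cyclotomic_order (p := 13) hN hm hr (Dvd.dvd.trans (by norm_num) h) o13
    (by rw [hdeg]; decide)
  have hgm : g.Monic := (cyclotomic.monic _ ℤ).of_mul_monic_left (hg ▸ hm)
  have hgd : g.natDegree = 3 := by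
    rw [hg, (cyclotomic.monic _ ℤ).natDegree_mul hgm, natDegree_cyclotomic] at hdeg
    have : Nat.totient 12 = 4 := by decide
    omega
  have h5 : ((5 : ℕ) : ℤ) ∣ g.eval 2 := by
    rw [hg, eval_mul, cyclotomic_twelve'] at h
    simp only [eval_add, eval_sub, eval_pow, eval_X, eval_one] at h
    norm_num at h ⊢
    omega
  obtain ⟨u, hu⟩ := exists_cyclotomic_order (p := 5) hN hgm (fun w hw => hr w (by rw [hg, map_mul, hw, mul_zero]))
    h5 o5 (by rw [hgd]; decide)
  have hum : u.Monic := (cyclotomic.monic _ ℤ).of_mul_monic_left (hu ▸ hgm)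
  have hud : u.natDegree = 1 := by
    rw [hu, (cyclotomic.monic _ ℤ).natDegree_mul hum, natDegree_cyclotomic] at hgd
    have : Nat.totient 4 = 2 := by decide
    omega
  have hu1 : u = X - C (-u.coeff 0) := by
    rw [hum.eq_X_add_C hud]; simp
  set e := -u.coeff 0
  have hχ : M.charpoly = (X ^ 6 + 1) * (X - C e) := by
    rw [hg, hu, cyclotomic_twelve', cyclotomic_four', hu1]; ring
  refine ⟨e, ?_, hχ⟩
  have h1 := hr (e : ℂ) (by rw [hχ]; simp)
  have h2 : e ^ N = 1 := by exact_mod_cast h1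
  rcases Int.isUnit_iff.1 (IsUnit.of_pow_eq_one h2 hN) with h3 | h3 <;> rw [h3] <;> norm_num

/-- If `χ_M = (X⁶+1)(X-e)` then `M⁶ + 1` has rank at most one. -/
theorem minor_of_charpoly {M P : Matrix n n ℤ} {e : ℤ} (he : e * e = 1) (h : M.charpoly = (X ^ 6 + 1) * (X - C e))
    (hP : P = M ^ 6 + 1) : P * M = e • P ∧ ∀ i j k l, P i k * P j l = P i l * P j k := by
  have h1 : (M ^ 6 + 1) * M = e • (M ^ 6 + 1) := by
    have := M.aeval_self_charpoly
    rw [h, map_mul, map_add, map_pow, map_sub, aeval_X, aeval_C, map_one, mul_sub, sub_eq_zero] at this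
    rw [this, Algebra.algebraMap_eq_smul_one, mul_smul_comm, mul_one]
  rw [← hP] at h1
  refine ⟨h1, ?_⟩
  set A := Mᵀ.map (Int.castRingHom ℚ) with hA
  have hχ : (toLin' A).charpoly = (X ^ 6 + 1) * (X - C (e : ℚ)) := by
    rw [charpoly_toLin', hA, charpoly_map, charpoly_transpose, h]; simp
  have hrk : Module.finrank ℚ (Module.End.eigenspace (toLin' A) (e : ℚ)) ≤ 1 := by
    refine (LinearMap.finrank_eigenspace_le _ _).trans ?_
    have hne : ((X : ℚ[X]) ^ 6 + 1) * (X - C (e : ℚ)) ≠ 0 := hχ ▸ (LinearMap.charpoly_monic _).ne_zero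
    rw [hχ, rootMultiplicity_mul hne, rootMultiplicity_X_sub_C_self, rootMultiplicity_eq_zero]
    have : (e : ℚ) ^ 6 = 1 := by
      have : (e : ℚ) * e = 1 := by exact_mod_cast he
      calc (e : ℚ) ^ 6 = (e * e) ^ 3 := by ring
        _ = 1 := by rw [this, one_pow]
    simp [this]
  have hmem : ∀ i, (fun k => (P i k : ℚ)) ∈ Module.End.eigenspace (toLin' A) (e : ℚ) := fun i => by
    rw [Module.End.mem_eigenspace_iff, toLin'_apply]
    ext k
    have := congrFun (congrFun h1 i) k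
    rw [mul_apply, Matrix.smul_apply, smul_eq_mul] at this
    have h2 : (∑ j, (P i j : ℚ) * M j k) = e * P i k := by exact_mod_cast this
    simp only [mulVec, dotProduct, hA, map_apply, transpose_apply, eq_intCast, Pi.smul_apply, smul_eq_mul]
    rw [← h2]; exact Finset.sum_congr rfl fun j _ => mul_comm _ _
  obtain ⟨v, hv⟩ := finrank_le_one_iff.1 hrk
  intro i j k l
  obtain ⟨a, ha⟩ := hv ⟨_, hmem i⟩
  obtain ⟨b, hb⟩ := hv ⟨_, hmem j⟩
  have ha' : ∀ k, (P i k : ℚ) = a * v.1 k := fun k => (congrFun (congrArg Subtype.val ha) k).symm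
  have hb' : ∀ k, (P j k : ℚ) = b * v.1 k := fun k => (congrFun (congrArg Subtype.val hb) k).symm
  have : (P i k : ℚ) * P j l = P i l * P j k := by rw [ha', ha', hb', hb']; ring
  exact_mod_cast this

end Cfsg.Agent.H64
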