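import Cfsg.Agent.H89.KGV
import Cfsg.Agent.H53.Virtual
import Cfsg.Agent.H32.LocRing
import Cfsg.Agent.H5.ClassFn

/-!
The counting argument of Knoerr, Robinson and Thompson for the number of classes of `GV`.
-/

set_option autoImplicit false
set_option linter.style.haveILetI false

namespace Cfsg.Agent.H64.KV

open Cfsg Cfsg.Agent.H5 Cfsg.Agent.H7 Cfsg.Agent.H32 Cfsg.Agent.H53 Cfsg.Agent.H89
open scoped ComplexConjugate

theorem int_conj {z : ℂ} (h : IsIntegral ℤ z) : IsIntegral ℤ (conj z) :=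
  h.map (starRingEnd ℂ).toIntAlgHom

/-- integral numbers congruent to their complex conjugates -/
def RR (M : Ideal AlgInt) [M.IsMaximal] : Subring ℂ where
  carrier := {z | IsIntegral ℤ z ∧ z - conj z ∈ locMax M}
  mul_mem' {a b} ha hb := ⟨ha.1.mul hb.1, by
    rw [map_mul]
    exact mul_sub_mul_mem_locMax (mem_locRing_of_isIntegral ha.1)
      (mem_locRing_of_isIntegral (int_conj hb.1)) ha.2 hb.2⟩
  one_mem' := ⟨isIntegral_one, by simp⟩
  add_mem' {a b} ha hb := ⟨ha.1.add hb.1, by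
    have := add_mem ha.2 hb.2
    rwa [map_add, add_sub_add_comm]⟩
  zero_mem' := ⟨isIntegral_zero, by simp⟩
  neg_mem' {a} ha := ⟨ha.1.neg, by
    have := neg_mem ha.2
    rwa [map_neg, neg_sub_neg, ← neg_sub]⟩

variable {p : ℕ} {M : Ideal AlgInt} [M.IsMaximal]

theorem mem_RR_of_pow (hp : p ≠ 0) (hM : IsPModular p M) {z : ℂ} (hz : z ^ p = 1) : z ∈ RR M := by
  refine ⟨IsIntegral.of_pow (Nat.pos_of_ne_zero hp) (hz ▸ isIntegral_one), ?_⟩
  have h1 := sub_one_mem_locMax_of_pow_p_pow hM (z := z) (k := 1) (by simpa using hz)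
  have h2 := sub_one_mem_locMax_of_pow_p_pow hM (z := conj z) (k := 1) (by
    rw [pow_one, ← map_pow, hz, map_one])
  exact sub_mem_locMax_trans h1 (sub_mem_locMax_comm h2)

theorem locMax_of_RR {γ : ℂ} {n : ℕ} (hn : 0 < n) (h : γ ^ n ∈ RR M) (h2 : γ * conj γ ∈ locMax M) :
    γ ∈ locMax M := by
  have h0 : IsIntegral ℤ γ := IsIntegral.of_pow hn h.1
  have h3 := pow_mem_locMax h2 hn.ne'
  rw [mul_pow, ← map_pow] at h3
  have h4 := add_mem h3 (mul_mem_locMax_left (mem_locRing_of_isIntegral h.1) h.2)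
  rw [← mul_add, add_sub_cancel, ← pow_add] at h4
  exact mem_locMax_of_pow_mem (mem_locRing_of_isIntegral h0) h4

/-- the cyclic group of order `p` -/
abbrev Zp (p : ℕ) := Multiplicative (ZMod p)

/-- `Ω` is a square root of `π`. -/
structure Root (M : Ideal AlgInt) [M.IsMaximal] {C : Type*} [Group C] (π : C → ℕ)
    (Ω : C × Zp p → ℂ) : Prop where
  chπ : IsCharacter C (fun c => (π c : ℂ))
  pw : ∀ c, ∃ j, π c = p ^ j
  dvd : ∀ c, π c ∣ π 1
  ch : IsCharacter _ Ω
  nrm : ∀ c a, a ≠ 1 → Ω (c, a) * conj (Ω (c, a)) = π c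
  rr : ∀ c a, a ≠ 1 → ∃ n, 0 < n ∧ (Ω (1, a) / Ω (c, a)) ^ n ∈ RR M

variable {C : Type*} [Group C]

theorem Root.mul {π π' : C → ℕ} {Ω Ω' : C × Zp p → ℂ} (h : Root M π Ω) (h' : Root M π' Ω') :
    Root M (fun c => π c * π' c) (Ω * Ω') where
  chπ := by
    have := isCharacter_mul h.chπ h'.chπ
    convert this using 2
    simp
  pw c := by
    obtain ⟨j, hj⟩ := h.pw c
    obtain ⟨k, hk⟩ := h'.pw c
    exact ⟨j + k, by rw [hj, hk, pow_add]⟩
  dvd c := mul_dvd_mul (h.dvd c) (h'.dvd c)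
  ch := isCharacter_mul h.ch h'.ch
  nrm c a ha := by
    rw [Pi.mul_apply, map_mul, mul_mul_mul_comm, h.nrm c a ha, h'.nrm c a ha, Nat.cast_mul]
  rr c a ha := by
    obtain ⟨n, hn, h1⟩ := h.rr c a ha
    obtain ⟨m, hm, h2⟩ := h'.rr c a ha
    refine ⟨n * m, Nat.mul_pos hn hm, ?_⟩
    rw [Pi.mul_apply, Pi.mul_apply, mul_div_mul_comm, mul_pow, pow_mul, mul_comm n m, pow_mul]
    exact mul_mem (pow_mem h1 _) (pow_mem h2 _)

theorem exists_inv [Finite C] {π : C → ℕ} (h : IsCharacter C (fun c => (π c : ℂ)))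
    (hp : ∀ c, ∃ j, π c = p ^ j) :
    ∃ (N : ℕ) (ι : C → ℂ), IsGeneralizedCharacter C ι ∧ ∀ c, π c * ι c = (p : ℂ) ^ N := by
  classical
  have := Fintype.ofFinite C
  choose j hj using hp
  have key : ∀ s : Finset ℕ, ∃ q : C → ℂ, IsGeneralizedCharacter C q ∧
      ∀ c, ∏ i ∈ s, ((p : ℂ) ^ i - π c) = (p : ℂ) ^ (∑ i ∈ s, i) - π c * q c := by
    intro s
    induction s using Finset.induction_on with
    | empty => exact ⟨0, virt_zero, fun c => by simp⟩
    | insert i s hi ih =>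
      obtain ⟨q, hq, e⟩ := ih
      refine ⟨(p ^ ∑ i ∈ s, i) • (fun _ => 1) + (p ^ i) • q - (fun c => (π c : ℂ)) * q,
        virt_sub (virt_add (virt_nsmul _ virt_one) (virt_nsmul _ hq))
          (virt_mul (virt_of_char h) hq), fun c => ?_⟩
      rw [Finset.prod_insert hi, Finset.sum_insert hi, e, pow_add]
      simp only [Pi.sub_apply, Pi.add_apply, Pi.mul_apply, nsmul_eq_mul, Pi.natCast_apply]
      push_cast
      ring
  obtain ⟨q, hq, e⟩ := key (Finset.univ.image j)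
  refine ⟨∑ i ∈ Finset.univ.image j, i, q, hq, fun c => ?_⟩
  have := e c
  have h0 : (p : ℂ) ^ j c - π c = 0 := by rw [hj c]; push_cast; exact sub_self _
  rw [Finset.prod_eq_zero (Finset.mem_image_of_mem j (Finset.mem_univ c)) h0] at this
  exact (sub_eq_zero.1 this.symm).symm

theorem int_of_coprime {z : ℂ} {a b : ℕ} (hab : a.Coprime b) (ha : IsIntegral ℤ (a * z))
    (hb : IsIntegral ℤ (b * z)) : IsIntegral ℤ z := by
  obtain ⟨x, y, e⟩ := Nat.isCoprime_iff_coprime.2 hab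
  have e' : (x : ℂ) * a + y * b = 1 := by exact_mod_cast e
  have : z = x * (a * z) + y * (b * z) := by linear_combination (-z) * e'
  rw [this]
  exact ((isIntegral_algebraMap (x := x)).mul ha).add ((isIntegral_algebraMap (x := y)).mul hb)

theorem parseval [Fintype C] {f : C → ℂ} (hf : IsClassFunction C f) :
    ∑ ζ : IrrCharacter C, ‖classInner f ζ‖ ^ 2 = (Nat.card C : ℝ)⁻¹ * ∑ c, ‖f c‖ ^ 2 := by
  have h := classInner_eq_sum_irr (f' := f) hf
  rw [classInner_self_eq] at h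
  simp only [← conj_classInner f, Complex.mul_conj, Complex.normSq_eq_norm_sq] at h
  exact_mod_cast h.symm

variable [hp : Fact p.Prime]

namespace Root

variable {π : C → ℕ} {Ω : C × Zp p → ℂ}

theorem pos (h : Root M π Ω) (c : C) : 0 < π c := by
  obtain ⟨j, hj⟩ := h.pw c
  rw [hj]
  exact pow_pos hp.out.pos _

theorem ne (h : Root M π Ω) (c : C) {a : Zp p} (ha : a ≠ 1) : Ω (c, a) ≠ 0 := fun e => by
  have := h.nrm c a ha
  rw [e, zero_mul] at this
  exact (h.pos c).ne' (by exact_mod_cast this.symm)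

theorem mul_conj (h : Root M π Ω) (c : C) {a : Zp p} (ha : a ≠ 1) :
    Ω (1, a) / Ω (c, a) * conj (Ω (1, a) / Ω (c, a)) = (π 1 : ℂ) / π c := by
  rw [map_div₀, div_mul_div_comm, h.nrm _ _ ha, h.nrm _ _ ha]

theorem norm_sq (h : Root M π Ω) (c : C) {a : Zp p} (ha : a ≠ 1) :
    ‖Ω (1, a) / Ω (c, a)‖ ^ 2 = (π 1 : ℝ) / π c := by
  have := h.mul_conj c ha
  rw [Complex.mul_conj, Complex.normSq_eq_norm_sq] at this
  apply Complex.ofReal_injective
  rw [this]
  simp

theorem int (h : Root M π Ω) (c : C) {a : Zp p} (ha : a ≠ 1) :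
    IsIntegral ℤ (Ω (1, a) / Ω (c, a)) := by
  obtain ⟨n, hn, h1⟩ := h.rr c a ha
  exact IsIntegral.of_pow hn h1.1

theorem mem (hM : IsPModular p M) (h : Root M π Ω) {c : C} (hc : π c ≠ π 1) {a : Zp p}
    (ha : a ≠ 1) : Ω (1, a) / Ω (c, a) ∈ locMax M := by
  obtain ⟨n, hn, h1⟩ := h.rr c a ha
  refine locMax_of_RR hn h1 ?_
  rw [h.mul_conj c ha]
  obtain ⟨d, hd⟩ := h.dvd c
  obtain ⟨j, hj⟩ := h.pw 1
  have h0 : (π c : ℂ) ≠ 0 := by exact_mod_cast (h.pos c).ne'
  rw [hd, Nat.cast_mul, mul_div_cancel_left₀ _ h0, natCast_mem_locMax_iff hM]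
  obtain ⟨i, -, hi⟩ := (Nat.dvd_prime_pow hp.out).1 (hj ▸ hd ▸ Dvd.intro_left _ rfl : d ∣ p ^ j)
  rw [hi]
  refine dvd_pow_self _ fun e => hc ?_
  rw [hd, hi, e, pow_zero, mul_one]

/-- the key inequality for one character of `C × Z` -/
theorem key [Fintype C] (hM : IsPModular p M) (h : Root M π Ω) (hC : ¬ p ∣ Nat.card C)
    (hf : ∀ c, c ≠ 1 → π c ≠ π 1) {θ : C × Zp p → ℂ} (hθ : IsCharacter _ θ)
    (hd : θ 1 ∉ locMax M) (ζ : IrrCharacter C) :
    ((p - 1 : ℕ) : ℝ) ≤ ∑ a ∈ Finset.univ.erase (1 : Zp p),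
      ‖classInner (fun c => Ω (1, a) / Ω (c, a) * θ (c, a)) ζ‖ ^ 2 := by
  classical
  obtain ⟨N, ι, hι, e⟩ := exists_inv h.chπ h.pw
  have hζ := isCharacter_of_isIrr ζ.2
  let Ψ : C × Zp p → ℂ := (fun x => Ω (1, x.2)) * (conjFun Ω) * (fun x => ι x.1) * θ
  have hΨ : IsGeneralizedCharacter _ Ψ :=
    virt_mul (virt_mul (virt_mul
      (virt_comp (virt_of_char h.ch) ((MonoidHom.inr C (Zp p)).comp (MonoidHom.snd C (Zp p))))
      (virt_conjFun (virt_of_char h.ch))) (virt_comp hι (MonoidHom.fst C (Zp p))))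
      (virt_of_char hθ)
  let μ : Zp p → ℂ := fun a => classInner (fun c => Ψ (c, a)) ζ
  have hμ : IsGeneralizedCharacter _ μ := by
    obtain ⟨α, β, hα, hβ, e⟩ := hΨ
    have h1 := isCharacter_partial_inner (MonoidHom.inl C (Zp p)) (MonoidHom.inr C (Zp p))
      (fun c s => by simp [Commute, SemiconjBy]) hα hζ
    have h2 := isCharacter_partial_inner (MonoidHom.inl C (Zp p)) (MonoidHom.inr C (Zp p))
      (fun c s => by simp [Commute, SemiconjBy]) hβ hζ
    refine ⟨_, _, h1, h2, funext fun a => ?_⟩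
    rw [Pi.sub_apply, ← classInner_sub_left]
    simp only [μ, e]
    congr 1
    ext c
    simp
  have hp0 : ((p : ℂ) ^ N) ≠ 0 := pow_ne_zero _ (by exact_mod_cast hp.out.ne_zero)
  have hm : ∀ a, a ≠ 1 → μ a =
      (p : ℂ) ^ N * classInner (fun c => Ω (1, a) / Ω (c, a) * θ (c, a)) ζ := by
    intro a ha
    rw [← classInner_smul_left]
    simp only [μ]
    congr 1
    ext c
    have h1 := h.ne c ha
    simp only [Ψ, Pi.mul_apply, Pi.smul_apply, smul_eq_mul, conjFun]
    rw [← e c, ← h.nrm c a ha]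
    field_simp
  have hsum : ∀ a, (Nat.card C : ℂ) * classInner (fun c => Ω (1, a) / Ω (c, a) * θ (c, a)) ζ =
      ∑ c, Ω (1, a) / Ω (c, a) * θ (c, a) * conj (ζ.1 c) := fun a => by
    rw [classInner, ← mul_assoc, mul_inv_cancel₀ natCard_ne_zero, one_mul]
  have hcard : (Finset.univ.erase (1 : Zp p)).card = p - 1 := by
    rw [Finset.card_erase_of_mem (Finset.mem_univ _), Finset.card_univ, Fintype.card_multiplicative,
      ZMod.card]
  rw [← hcard]
  refine card_le_sum_norm_pow_of_galois _ _ (fun a ha => ?_) (fun a ha => ?_) (fun τ => ?_) 2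
  · have ha' := Finset.ne_of_mem_erase ha
    refine int_of_coprime (a := p ^ N) (b := Nat.card C)
      (((Nat.Prime.coprime_iff_not_dvd hp.out).2 hC).pow_left N) ?_ ?_
    · rw [Nat.cast_pow, ← hm a ha']
      exact virt_isIntegral hμ a
    · rw [hsum]
      exact IsIntegral.sum _ fun c _ => ((h.int c ha').mul (isIntegral_apply hθ _)).mul
        (int_conj (isIntegral_apply hζ c))
  · have ha' := Finset.ne_of_mem_erase ha
    intro h0
    have h1 := hsum a
    rw [h0, mul_zero, ← Finset.add_sum_erase _ _ (Finset.mem_univ 1), div_self (h.ne 1 ha'),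
      one_mul] at h1
    have h2 : ∑ c ∈ Finset.univ.erase 1, Ω (1, a) / Ω (c, a) * θ (c, a) * conj (ζ.1 c) ∈
        locMax M := sum_mem fun c hc => mul_mem_locMax_right (mul_mem_locMax_right
          (h.mem hM (hf c (Finset.ne_of_mem_erase hc)) ha')
          (mem_locRing_of_isIntegral (isIntegral_apply hθ _)))
          (mem_locRing_of_isIntegral (int_conj (isIntegral_apply hζ c)))
    have h3 : θ (1, a) * conj (ζ.1 1) ∈ locMax M := by
      rw [eq_neg_of_add_eq_zero_left h1.symm]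
      exact neg_mem h2
    refine mul_not_mem_locMax (mem_locRing_of_isIntegral (isIntegral_apply hθ _))
      (mem_locRing_of_isIntegral (int_conj (isIntegral_apply hζ 1))) (fun h4 => hd ?_) ?_ h3
    · have h5 := char_sub_mem_locMax (fun a b => mul_comm a b) hM
        (isCharacter_comp hθ (MonoidHom.inr C (Zp p))) (u := a) (k := 1) (by
          rw [pow_one]
          have := pow_card_eq_one' (x := a)
          rwa [Nat.card_eq_fintype_card, Fintype.card_multiplicative, ZMod.card] at this) 1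
      rw [mul_one] at h5
      exact (mem_locMax_iff_of_sub_mem h5).1 h4
    · obtain ⟨n, hn⟩ := exists_nat_degree hζ
      rw [hn, map_natCast, natCast_mem_locMax_iff hM]
      exact fun h4 => hC (h4.trans (degree_dvd_card ζ.2 hn))
  · obtain ⟨k, hk, hτ⟩ := exists_coprime_ringHom_character (Zp p) τ.toRingHom
    have hinj : Function.Injective fun a : Zp p => a ^ k := (powCoprime hk.symm).injective
    have hne : ∀ a : Zp p, a ≠ 1 → a ^ k ≠ 1 := fun a ha e => ha (hinj (by simpa using e))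
    refine map_prod_eq_of_injOn _ _ τ (fun a => a ^ k)
      (fun a ha => Finset.mem_erase.2 ⟨hne a (Finset.ne_of_mem_erase ha), Finset.mem_univ _⟩)
      hinj.injOn fun a ha => ?_
    have ha' := Finset.ne_of_mem_erase ha
    have h1 : τ (μ a) = μ (a ^ k) := by
      obtain ⟨α, β, hα, hβ, e⟩ := hμ
      rw [e, Pi.sub_apply, Pi.sub_apply, map_sub, ← hτ α hα, ← hτ β hβ]
      rfl
    rw [hm a ha', hm _ (hne a ha'), map_mul, map_pow, map_natCast] at h1
    exact mul_left_cancel₀ hp0 h1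

theorem count [Finite C] (hM : IsPModular p M) (h : Root M π Ω) (hC : ¬ p ∣ Nat.card C)
    (hf : ∀ c, c ≠ 1 → π c ≠ π 1) {X : Type*} [Group X] [Finite X] (j : C × Zp p →* X)
    (hd : ∀ (χ : X → ℂ) (n : ℕ), IsIrrCharacter X χ → χ 1 = n → ¬ p ∣ n) {B : ℕ}
    (hB : ∀ c a, a ≠ 1 → π 1 * Nat.card (Subgroup.centralizer ({j (c, a)} : Set X)) ≤
      π c * (B * Nat.card (Subgroup.centralizer ({c} : Set C)))) :
    Nat.card (ConjClasses X) ≤ B := by
  classical
  have := Fintype.ofFinite C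
  have hC0 : (0 : ℝ) < Nat.card C := by exact_mod_cast Nat.card_pos
  let k : ℝ := Fintype.card (IrrCharacter C)
  have hk : 0 < k := by simp only [k]; exact_mod_cast Fintype.card_pos
  have hp1 : (0 : ℝ) < (p - 1 : ℕ) := by exact_mod_cast Nat.sub_pos_of_lt hp.out.one_lt
  have hcard : (Finset.univ.erase (1 : Zp p)).card = p - 1 := by
    rw [Finset.card_erase_of_mem (Finset.mem_univ _), Finset.card_univ, Fintype.card_multiplicative,
      ZMod.card]
  have h1 : ∀ χ : IrrCharacter X, k * (p - 1 : ℕ) ≤ ∑ a ∈ Finset.univ.erase (1 : Zp p),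
      (Nat.card C : ℝ)⁻¹ * ∑ c, (π 1 : ℝ) / π c * ‖χ.1 (j (c, a))‖ ^ 2 := by
    intro χ
    have hθ := isCharacter_comp (isCharacter_of_isIrr χ.2) j
    have h2 := Finset.card_nsmul_le_sum Finset.univ _ _ fun ζ _ => h.key hM hC hf hθ (by
      obtain ⟨n, hn⟩ := exists_nat_degree (isCharacter_of_isIrr χ.2)
      rw [map_one, hn, natCast_mem_locMax_iff hM]
      exact hd _ n χ.2 hn) ζ
    rw [nsmul_eq_mul, Finset.card_univ, Finset.sum_comm] at h2
    refine h2.trans (le_of_eq (Finset.sum_congr rfl fun a ha => ?_))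
    rw [parseval]
    · simp only [norm_mul, mul_pow, h.norm_sq _ (Finset.ne_of_mem_erase ha)]
    · intro g x
      have e : ((x * g * x⁻¹, a) : C × Zp p) = (x, 1) * (g, a) * (x, 1)⁻¹ := by simp
      simp only [e]
      have : χ.1 (j _) = χ.1 (j _) := isClassFunction_of_isCharacter hθ (g, a) (x, 1)
      rw [isClassFunction_of_isCharacter h.ch, this]
  have h3 : ∑ c : C, (Nat.card (Subgroup.centralizer ({c} : Set C)) : ℝ) = k * Nat.card C := by
    simp only [← sum_norm_sq_col]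
    rw [Finset.sum_comm]
    simp only [fun ζ : IrrCharacter C => sum_norm_sq_irr ζ.2, Finset.sum_const, nsmul_eq_mul,
      Finset.card_univ, k]
  have h2 := Finset.card_nsmul_le_sum Finset.univ _ _ fun χ _ => h1 χ
  rw [nsmul_eq_mul, Finset.card_univ, Finset.sum_comm] at h2
  have h4 : ∀ a ∈ Finset.univ.erase (1 : Zp p), ∑ χ : IrrCharacter X,
      (Nat.card C : ℝ)⁻¹ * ∑ c, (π 1 : ℝ) / π c * ‖χ.1 (j (c, a))‖ ^ 2 ≤ k * B := by
    intro a ha
    rw [← Finset.mul_sum, Finset.sum_comm]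
    simp only [← Finset.mul_sum, sum_norm_sq_col]
    rw [inv_mul_le_iff₀ hC0]
    calc _ ≤ ∑ c : C, (B : ℝ) * Nat.card (Subgroup.centralizer ({c} : Set C)) := by
          refine Finset.sum_le_sum fun c _ => ?_
          have h5 : (0 : ℝ) < π c := by exact_mod_cast h.pos c
          rw [div_mul_eq_mul_div, div_le_iff₀' h5]
          exact_mod_cast hB c a (Finset.ne_of_mem_erase ha)
      _ = _ := by rw [← Finset.mul_sum, h3]; ring
  have h5 := h2.trans (Finset.sum_le_card_nsmul _ _ _ h4)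
  rw [hcard, nsmul_eq_mul, ← Nat.card_eq_fintype_card, card_irrCharacter] at h5
  have h6 : (Nat.card (ConjClasses X) : ℝ) ≤ B := by
    refine le_of_mul_le_mul_right (a := k * (p - 1 : ℕ)) (h5.trans (le_of_eq ?_)) (by positivity)
    ring
  exact_mod_cast h6

end Root

end Cfsg.Agent.H64.KV
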