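import Cfsg.Agent.H64.KV1
import Cfsg.Agent.H65.Weil2

/-!
Gauss sums give a square root of the permutation character of an orthogonal module.
-/

set_option autoImplicit false
set_option linter.style.haveILetI false

namespace Cfsg.Agent.H64.KV

open Cfsg Cfsg.Agent.H5 Cfsg.Agent.H32
open scoped ComplexConjugate

variable {p : ℕ} [hp : Fact p.Prime] {M : Ideal AlgInt} [M.IsMaximal] {C : Type*} [Group C]
  {W : Type*} [AddCommGroup W] [Module (ZMod p) W]

/-- fixed points -/
def Fx (ρ : Representation (ZMod p) C W) (c : C) : Submodule (ZMod p) W :=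
  LinearMap.ker (ρ c - 1)

theorem mem_Fx {ρ : Representation (ZMod p) C W} {c : C} {w : W} : w ∈ Fx ρ c ↔ ρ c w = w := by
  simp [Fx, sub_eq_zero]

theorem Fx_one (ρ : Representation (ZMod p) C W) : Fx ρ 1 = ⊤ :=
  eq_top_iff.2 fun w _ => mem_Fx.2 (by simp)

/-- number of fixed points -/
noncomputable def fx (ρ : Representation (ZMod p) C W) (c : C) : ℕ := Nat.card (Fx ρ c)

theorem fx_one (ρ : Representation (ZMod p) C W) : fx ρ 1 = Nat.card W := by
  rw [fx, Fx_one]
  exact Nat.card_congr Submodule.topEquiv.toEquiv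

theorem fx_dvd (ρ : Representation (ZMod p) C W) (c : C) : fx ρ c ∣ fx ρ 1 := by
  rw [fx_one]
  exact AddSubgroup.card_addSubgroup_dvd_card (Fx ρ c).toAddSubgroup

variable [Finite W]

theorem fx_pw (ρ : Representation (ZMod p) C W) (c : C) : ∃ j, fx ρ c = p ^ j :=
  ⟨_, by rw [fx, Module.natCard_eq_pow_finrank (K := ZMod p), Nat.card_zmod]⟩

theorem fx_char (ρ : Representation (ZMod p) C W) : IsCharacter C (fun c => (fx ρ c : ℂ)) := by
  letI : MulAction C W := MulAction.compHom W ρ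
  convert isCharacter_perm (G := C) W using 3 with c
  exact Nat.card_congr (Equiv.subtypeEquivRight fun w => mem_Fx)

theorem psi_mem (hM : IsPModular p M) (ψ : AddChar (ZMod p) ℂ) (x : ZMod p) : ψ x ∈ RR M :=
  mem_RR_of_pow hp.out.ne_zero hM (by
    rw [← AddChar.map_nsmul_eq_pow, nsmul_eq_mul, ZMod.natCast_self, zero_mul, AddChar.map_zero_eq_one])

theorem conj_psi (ψ : AddChar (ZMod p) ℂ) (x : ZMod p) : conj (ψ x) = ψ (-x) := by
  rw [AddChar.map_neg_eq_inv, inv_eq_conj_of_pow_eq_one hp.out.ne_zero (by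
    rw [← AddChar.map_nsmul_eq_pow, nsmul_eq_mul, ZMod.natCast_self, zero_mul,
      AddChar.map_zero_eq_one])]

open Classical in
theorem gauss_mul {ψ : AddChar (ZMod p) ℂ} (hψ : ψ ≠ 1) (Q : QuadraticForm (ZMod p) W)
    {a : ZMod p} (ha : a ≠ 0) {F H : Submodule (ZMod p) W} [Fintype F] [Fintype H] (hFH : F ≤ H) :
    (∑ w : H, ψ (a * Q w)) * conj (∑ u : F, ψ (a * Q u)) =
      Nat.card F * ∑ x : H, if ∀ u ∈ F, QuadraticMap.polarBilin Q u x = 0 then ψ (a * Q x) else 0 := by
  rw [map_sum, Finset.mul_sum]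
  have h1 : ∀ u : F, (∑ w : H, ψ (a * Q w)) * conj (ψ (a * Q u)) =
      ∑ x : H, ψ (a * Q x) * ψ (a * QuadraticMap.polarBilin Q u x) := by
    intro u
    rw [Finset.sum_mul, ← Equiv.sum_comp (Equiv.addLeft (⟨u, hFH u.2⟩ : H))]
    refine Finset.sum_congr rfl fun x _ => ?_
    rw [conj_psi, ← AddChar.map_add_eq_mul, ← AddChar.map_add_eq_mul]
    congr 1
    simp only [Equiv.coe_addLeft, Submodule.coe_add, QuadraticMap.polarBilin_apply_apply,
      QuadraticMap.polar]
    ring
  simp only [h1]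
  rw [Finset.sum_comm, Finset.mul_sum]
  refine Finset.sum_congr rfl fun x _ => ?_
  rw [← Finset.mul_sum]
  split_ifs with h
  · rw [Finset.sum_congr rfl fun (u : F) _ => by rw [h u u.2, mul_zero, AddChar.map_zero_eq_one]]
    simp [mul_comm]
  · have := H65.sum_char hψ (W := F) (l := a • ((QuadraticMap.polarBilin Q).flip x ∘ₗ F.subtype))
      (fun e => h fun u hu => by
        have := LinearMap.congr_fun e ⟨u, hu⟩
        simpa [ha] using this)
    rw [mul_zero]
    exact mul_eq_zero_of_right _ this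

/-- the monomial representation -/
def gRep (ψ : AddChar (ZMod p) ℂ) (ρ : Representation (ZMod p) C W) (Q : QuadraticForm (ZMod p) W)
    (hQ : ∀ c w, Q (ρ c w) = Q w) : Representation ℂ (C × Zp p) (W → ℂ) where
  toFun x :=
    { toFun := fun f u => ψ (x.2.toAdd * Q u) * f (ρ x.1⁻¹ u)
      map_add' := fun f g => by ext; simp [mul_add]
      map_smul' := fun r f => by ext; simp [mul_left_comm] }
  map_one' := by ext f u; simp
  map_mul' x y := by
    refine LinearMap.ext fun f => funext fun u => ?_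
    simp [add_mul, AddChar.map_add_eq_mul, hQ, mul_assoc]

theorem gRep_char (ψ : AddChar (ZMod p) ℂ) (ρ : Representation (ZMod p) C W)
    (Q : QuadraticForm (ZMod p) W) (hQ : ∀ c w, Q (ρ c w) = Q w) (c : C) (a : Zp p)
    [Fintype (Fx ρ c)] :
    (gRep ψ ρ Q hQ).character (c, a) = ∑ u : Fx ρ c, ψ (a.toAdd * Q u) := by
  classical
  have := Fintype.ofFinite W
  rw [Representation.character, LinearMap.trace_eq_matrix_trace ℂ (Pi.basisFun ℂ W), Matrix.trace,
    ← Finset.sum_subtype (Finset.univ.filter (· ∈ Fx ρ c)) (by simp)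
      (fun u => ψ (a.toAdd * Q u)), Finset.sum_filter]
  refine Finset.sum_congr rfl fun u _ => ?_
  have : ρ c⁻¹ u = u ↔ u ∈ Fx ρ c := by
    rw [mem_Fx]
    constructor <;> intro h
    · conv_lhs => rw [← h]
      simp
    · conv_lhs => rw [← h]
      simp
  simp [LinearMap.toMatrix_apply, gRep, Pi.single_apply, this]

omit [Finite W] in
theorem fx_nondeg [Finite C] (hC : ¬ p ∣ Nat.card C) (ρ : Representation (ZMod p) C W)
    {B : LinearMap.BilinForm (ZMod p) W} (hB : ∀ c x y, B (ρ c x) (ρ c y) = B x y)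
    (hn : ∀ x, (∀ y, B y x = 0) → x = 0) {c : C} {x : W} (hx : x ∈ Fx ρ c)
    (h : ∀ u ∈ Fx ρ c, B u x = 0) : x = 0 := by
  classical
  refine hn x fun y => ?_
  have := Fintype.ofFinite (Subgroup.zpowers c)
  have hfix : ∀ d : Subgroup.zpowers c, ρ d x = x := by
    rintro ⟨_, k, rfl⟩
    let S : Subgroup C :=
      { carrier := {d | ρ d x = x}
        mul_mem' := fun {a b} ha hb => by
          simp only [Set.mem_setOf_eq] at ha hb ⊢
          rw [map_mul, Module.End.mul_apply, hb, ha]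
        one_mem' := by simp
        inv_mem' := fun {a} ha => by
          simp only [Set.mem_setOf_eq] at ha ⊢
          conv_lhs => rw [← ha]
          simp }
    exact S.zpow_mem (mem_Fx.1 hx) k
  have h1 := h (∑ d : Subgroup.zpowers c, ρ d y) (mem_Fx.2 (by
    rw [map_sum, ← Equiv.sum_comp (Equiv.mulLeft (⟨c, Subgroup.mem_zpowers c⟩ : Subgroup.zpowers c))
      (fun d => ρ d y)]
    simp))
  rw [map_sum, LinearMap.sum_apply, Finset.sum_congr rfl fun d _ => by
    conv_lhs => rw [← hfix d, hB]] at h1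
  rw [Finset.sum_const, Finset.card_univ, nsmul_eq_mul, ← Nat.card_eq_fintype_card] at h1
  refine (mul_eq_zero.1 h1).resolve_left fun h2 => hC ?_
  exact ((ZMod.natCast_eq_zero_iff _ _).1 h2).trans (Subgroup.card_subgroup_dvd_card _)

theorem root_gauss [Finite C] (hM : IsPModular p M) (hC : ¬ p ∣ Nat.card C)
    (ρ : Representation (ZMod p) C W) (Q : QuadraticForm (ZMod p) W) (hQ : ∀ c w, Q (ρ c w) = Q w)
    (hn : ∀ x, (∀ y, QuadraticMap.polarBilin Q y x = 0) → x = 0) :
    ∃ Ω : C × Zp p → ℂ, Root M (fx ρ) Ω := by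
  classical
  have := Fintype.ofFinite W
  let ψ : AddChar (ZMod p) ℂ := ZMod.stdAddChar
  have hψ : ψ ≠ 1 := by
    have := (ZMod.isPrimitive_stdAddChar p) (a := 1) one_ne_zero
    rwa [AddChar.mulShift_one] at this
  have hB : ∀ c x y, QuadraticMap.polarBilin Q (ρ c x) (ρ c y) = QuadraticMap.polarBilin Q x y := by
    intro c x y
    simp only [QuadraticMap.polarBilin_apply_apply, QuadraticMap.polar, ← map_add, hQ]
  have hnrm : ∀ c (a : Zp p), a ≠ 1 → (gRep ψ ρ Q hQ).character (c, a) *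
      conj ((gRep ψ ρ Q hQ).character (c, a)) = fx ρ c := by
    intro c a ha
    rw [gRep_char, gauss_mul hψ Q (fun e => ha (by simpa using e)) le_rfl, Finset.sum_eq_single 0]
    · simp [fx]
    · intro x _ hx
      exact if_neg fun h => hx (Subtype.ext (fx_nondeg hC ρ hB hn x.2 h))
    · simp
  refine ⟨(gRep ψ ρ Q hQ).character, fx_char ρ, fx_pw ρ, fx_dvd ρ, isCharacter_character _, hnrm,
    fun c a ha => ⟨1, one_pos, ?_⟩⟩
  have h0 : (fx ρ c : ℂ) ≠ 0 := by exact_mod_cast (Nat.card_pos (α := Fx ρ c)).ne'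
  have h1 := hnrm c a ha
  have h2 : conj ((gRep ψ ρ Q hQ).character (c, a)) ≠ 0 := fun e => h0 (by rw [← h1, e, mul_zero])
  rw [pow_one, ← mul_div_mul_right _ _ h2, h1, gRep_char, gRep_char,
    gauss_mul hψ Q (fun e => ha (by simpa using e)) (by rw [Fx_one]; exact le_top), ← fx,
    mul_div_cancel_left₀ _ h0]
  refine sum_mem fun x _ => ?_
  split_ifs
  · exact psi_mem hM ψ _
  · exact zero_mem _

end Cfsg.Agent.H64.KV
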