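import Cfsg.Agent.H64.KV2
import Cfsg.Agent.H3.SympBasis

/-!
The Weil character gives a square root of the permutation character of a symplectic module.
-/

set_option autoImplicit false
set_option linter.style.haveILetI false
set_option linter.unusedSectionVars false

namespace Cfsg.Agent.H64.KV

open Cfsg Cfsg.Agent.H5 Cfsg.Agent.H32 Cfsg.Agent.H65 Cfsg.Agent.H27 Module Matrix
open scoped ComplexConjugate

variable {p : ℕ} [hp : Fact p.Prime] {M : Ideal AlgInt} [M.IsMaximal] {n : ℕ}
  [h2 : Fact ((2 : ZMod p) ≠ 0)] {ψ : AddChar (ZMod p) ℂ} [hψ : Fact (ψ ≠ 1)]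

local notation "𝐟" => sympForm n (ZMod p)
local notation "X" => Fin n ⊕ Fin n → ZMod p
local notation "V₀" => (Fin n → ZMod p) → ℂ
local notation "co" => Basis.repr (hzB n ψ)

theorem co_hz (v w : X) : co (hz ψ v) w = if v = w then 1 else 0 := by
  rw [← hzB_apply, Basis.repr_self, Finsupp.single_apply]

theorem co_mul_hz (A : End ℂ V₀) (w v : X) : co (A * hz ψ v) (w + v) = co A w * ψ (2⁻¹ * 𝐟 w v) := by
  conv_lhs => rw [← (hzB n ψ).sum_repr A]
  simp only [Finset.sum_mul, smul_mul_assoc, hzB_apply, hz_mul, map_sum, map_smul,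
    Finsupp.finsetSum_apply, Finsupp.smul_apply, co_hz, add_left_inj, smul_eq_mul, mul_ite, mul_one,
    mul_zero, Finset.sum_ite_eq', Finset.mem_univ, if_true]

theorem co_hz_mul (A : End ℂ V₀) (u w : X) : co (hz ψ u * A) (u + w) = co A w * ψ (2⁻¹ * 𝐟 u w) := by
  conv_lhs => rw [← (hzB n ψ).sum_repr A]
  simp only [Finset.mul_sum, mul_smul_comm, hzB_apply, hz_mul, map_sum, map_smul,
    Finsupp.finsetSum_apply, Finsupp.smul_apply, co_hz, add_right_inj, smul_eq_mul, mul_ite, mul_one,
    mul_zero, Finset.sum_ite_eq', Finset.mem_univ, if_true]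

theorem co_mul_mem (hM : IsPModular p M) {A B : End ℂ V₀} (hA : ∀ w, co A w ∈ RR M)
    (hB : ∀ w, co B w ∈ RR M) (x : X) : co (A * B) x ∈ RR M := by
  rw [← (hzB n ψ).sum_repr B]
  simp only [Finset.mul_sum, mul_smul_comm, hzB_apply, map_sum, map_smul, Finsupp.finsetSum_apply,
    Finsupp.smul_apply, smul_eq_mul]
  refine sum_mem fun w _ => mul_mem (hB w) ?_
  rw [← sub_add_cancel x w, co_mul_hz]
  exact mul_mem (hA _) (psi_mem hM ψ _)

theorem co_pow_mem (hM : IsPModular p M) {A : End ℂ V₀} (hA : ∀ w, co A w ∈ RR M) (k : ℕ) (x : X) :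
    co (A ^ k) x ∈ RR M := by
  induction k generalizing x with
  | zero =>
    rw [pow_zero, ← hz_zero ψ, co_hz]
    split_ifs
    · exact one_mem _
    · exact zero_mem _
  | succ k ih =>
    rw [pow_succ]
    exact co_mul_mem hM ih hA x

theorem co_itw (hM : IsPModular p M) {g : symplecticGroup (Fin n) (ZMod p)} {T : End ℂ V₀}
    (h : Itw ψ g T) (w : X) : ∃ r ∈ RR M, co T w = co T 0 * r := by
  have key : ∀ w v : X, co T w * ψ (2⁻¹ * 𝐟 w v) =
      co T (w + v - g.1 *ᵥ v) * ψ (2⁻¹ * 𝐟 (g.1 *ᵥ v) (w + v - g.1 *ᵥ v)) := by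
    intro w v
    rw [← co_mul_hz, h.2, ← co_hz_mul, add_sub_cancel]
  let R : Submodule (ZMod p) X := LinearMap.range (1 - Matrix.toLin' g.1)
  by_cases hw : w ∈ R
  · obtain ⟨v, rfl⟩ := hw
    have h1 := key 0 v
    rw [sympForm_zero_left, mul_zero, AddChar.map_zero_eq_one, mul_one, zero_add] at h1
    refine ⟨ψ (-(2⁻¹ * 𝐟 (g.1 *ᵥ v) (v - g.1 *ᵥ v))), psi_mem hM ψ _, ?_⟩
    rw [h1, mul_assoc, ← AddChar.map_add_eq_mul, add_neg_cancel, AddChar.map_zero_eq_one, mul_one]
    simp
  · refine ⟨0, zero_mem _, ?_⟩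
    rw [mul_zero]
    rw [← LinearMap.BilinForm.orthogonal_orthogonal sympBilin_nondegenerate
      sympBilin_isAlt.isRefl R, LinearMap.BilinForm.mem_orthogonal_iff] at hw
    push Not at hw
    obtain ⟨v, hv, hvw⟩ := hw
    have hfix : g.1 *ᵥ v = v := by
      have h1 : (g⁻¹).1 *ᵥ v - v = 0 := eq_zero_of_sympForm_right fun x => by
        have h3 := hv _ ⟨x, rfl⟩
        simp only [LinearMap.sub_apply, End.one_apply, toLin'_apply, sympBilin_apply,
          sympForm_sub_left] at h3
        rw [sympForm_sub_right, ← sp_sympForm g, sp_mulVec_inv_mulVec, ← neg_sub, h3, neg_zero]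
      conv_lhs => rw [← sub_eq_zero.1 h1]
      exact sp_mulVec_inv_mulVec g v
    obtain ⟨y, hy⟩ := AddChar.ne_one_iff.1 hψ.out
    rw [sympBilin_apply] at hvw
    have h1 := key w ((y / 𝐟 v w) • v)
    rw [mulVec_smul, hfix, add_sub_cancel_right, sympForm_smul_left, sympForm_smul_right,
      sympForm_neg_comm w v, mul_neg, div_mul_cancel₀ _ hvw] at h1
    by_contra h0
    have h3 := mul_left_cancel₀ h0 h1
    apply hy
    have h4 : y = 2⁻¹ * y + 2⁻¹ * y := by
      have := h2.out
      field_simp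
      norm_num
    rw [h4, AddChar.map_add_eq_mul]
    nth_rewrite 1 [← h3]
    rw [← AddChar.map_add_eq_mul, mul_neg, neg_add_cancel, AddChar.map_zero_eq_one]

theorem weil_rr (hM : IsPModular p M) {g : symplecticGroup (Fin n) (ZMod p)} {k : ℕ}
    (hg : g ^ k = 1) : ((weil (n := n) ψ).character 1 / (weil ψ).character g) ^ k ∈ RR M := by
  choose r hr e using co_itw hM (weil_itw (ψ := ψ) g)
  let T' : End ℂ V₀ := ∑ w, r w • hz ψ w
  have h1 : ∀ w, co T' w = r w := fun w => by
    simp only [T', map_sum, map_smul, Finsupp.finsetSum_apply, Finsupp.smul_apply, co_hz,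
      smul_eq_mul, mul_ite, mul_one, mul_zero, Finset.sum_ite_eq', Finset.mem_univ, if_true]
  have h3 : weil ψ g = co (weil ψ g) 0 • T' := (hzB n ψ).repr.injective (Finsupp.ext fun w => by
    rw [map_smul, Finsupp.smul_apply, h1, e w, smul_eq_mul])
  have h4 : co (weil ψ g) 0 ^ k * co (T' ^ k) 0 = 1 := by
    have : co ((weil ψ g) ^ k) 0 = 1 := by
      rw [← map_pow, hg, map_one, ← hz_zero ψ, co_hz, if_pos rfl]
    rw [h3, smul_pow, map_smul, Finsupp.smul_apply, smul_eq_mul] at this
    exact this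
  have h5 : ∀ A : End ℂ V₀, LinearMap.trace ℂ _ A = co A 0 * (Fintype.card (ZMod p) : ℂ) ^ n := by
    intro A
    conv_lhs => rw [← (hzB n ψ).sum_repr A]
    simp only [map_sum, map_smul, hzB_apply, trace_hz, smul_eq_mul, mul_ite, mul_zero,
      Finset.sum_ite_eq', Finset.mem_univ, if_true]
  have h6 : ((Fintype.card (ZMod p) : ℂ) ^ n) ≠ 0 := pow_ne_zero _ (by
    exact_mod_cast Fintype.card_ne_zero)
  rw [Representation.character, Representation.character, h5, h5, mul_div_mul_right _ _ h6, map_one,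
    ← hz_zero ψ, co_hz, if_pos rfl, one_div, inv_pow, ← eq_inv_of_mul_eq_one_right h4]
  exact co_pow_mem hM (fun w => h1 w ▸ hr w) k 0

theorem weil_linHom (g : symplecticGroup (Fin n) (ZMod p)) :
    (weil ψ).character g⁻¹ * (weil ψ).character g = Nat.card {v : X // g.1 *ᵥ v = v} := by
  classical
  rw [← Representation.char_linHom, Representation.character,
    LinearMap.trace_eq_matrix_trace ℂ (hzB n ψ), Matrix.trace, Nat.card_eq_fintype_card,
    Fintype.card_subtype, Finset.card_filter, Nat.cast_sum]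
  refine Finset.sum_congr rfl fun v _ => ?_
  have : (weil ψ).linHom (weil ψ) g (hz ψ v) = hz ψ (g.1 *ᵥ v) := by
    rw [Representation.linHom_apply]
    change weil ψ g * (hz ψ v * weil ψ g⁻¹) = _
    rw [← mul_assoc, (weil_itw g).2, mul_assoc, ← map_mul, mul_inv_cancel, map_one, mul_one]
  rw [Matrix.diag_apply, LinearMap.toMatrix_apply, hzB_apply, this, co_hz]
  split_ifs <;> simp

omit hψ in
theorem root_weil {C : Type*} [Group C] [Finite C] {W : Type*} [AddCommGroup W] [Module (ZMod p) W]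
    [Finite W] (hM : IsPModular p M) (ρ : Representation (ZMod p) C W)
    (A : LinearMap.BilinForm (ZMod p) W) (hA : A.IsAlt) (hn : A.Nondegenerate)
    (hi : ∀ c x y, A (ρ c x) (ρ c y) = A x y) : ∃ Ω : C × Zp p → ℂ, Root M (fx ρ) Ω := by
  classical
  let ψ : AddChar (ZMod p) ℂ := ZMod.stdAddChar
  haveI : Fact (ψ ≠ 1) := ⟨by
    have := (ZMod.isPrimitive_stdAddChar p) (a := 1) one_ne_zero
    rwa [AddChar.mulShift_one] at this⟩
  obtain ⟨m, hm⟩ := H3.even_finrank_of_isAlt A hA hn
  obtain ⟨e, he⟩ := H3.exists_isometry_of_isAlt A (sympBilin m (ZMod p)) hA sympBilin_isAlt hn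
    sympBilin_nondegenerate (by simp [hm, two_mul])
  let φ : C →* symplecticGroup (Fin m) (ZMod p) :=
    { toFun := fun c => ⟨LinearMap.toMatrix' (e.conj (ρ c)), mem_sp_iff.2 fun u v => by
        obtain ⟨u, rfl⟩ := e.surjective u
        obtain ⟨v, rfl⟩ := e.surjective v
        simp only [LinearMap.toMatrix'_mulVec, ← sympBilin_apply, LinearEquiv.conj_apply_apply,
          LinearEquiv.symm_apply_apply, he, hi]⟩
      map_one' := Subtype.ext (by simp [End.one_eq_id])
      map_mul' := fun a b => Subtype.ext (by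
        simp only [map_mul, Submonoid.coe_mul]
        rw [← LinearMap.toMatrix'_mul]
        congr 1
        ext1
        simp [End.mul_eq_comp, LinearEquiv.conj_comp]) }
  have hφ : ∀ c w, (φ c).1 *ᵥ e w = e (ρ c w) := fun c w => by
    simp [φ]
  have hch : IsCharacter C fun c => (weil ψ).character (φ c) :=
    isCharacter_comp (isCharacter_character _) φ
  refine ⟨fun x => (weil ψ).character (φ x.1), fx_char ρ, fx_pw ρ, fx_dvd ρ,
    isCharacter_comp hch (MonoidHom.fst C (Zp p)), fun c a _ => ?_, fun c a _ =>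
      ⟨Nat.card C, Nat.card_pos, ?_⟩⟩
  · rw [← isCharacter_apply_inv hch, map_inv, mul_comm, weil_linHom, fx]
    congr 1
    refine (Nat.card_congr (e.toEquiv.subtypeEquiv fun w => ?_)).symm
    rw [mem_Fx, LinearEquiv.coe_toEquiv, hφ, e.injective.eq_iff]
  · simp only [map_one]
    exact weil_rr hM (by rw [← map_pow, pow_card_eq_one', map_one])

end Cfsg.Agent.H64.KV
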