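import Cfsg.Agent.H64.KV3
import Cfsg.Agent.S4966
import Cfsg.Agent.S2619

/-!
Square roots of permutation characters of self-dual coprime modules.
-/

set_option autoImplicit false
set_option linter.style.haveILetI false
set_option linter.unusedSectionVars false

namespace Cfsg.Agent.H64.KV

open Cfsg Module

variable {p : ℕ} [hp : Fact p.Prime] {M : Ideal AlgInt} [M.IsMaximal] {C : Type*} [Group C]
  [Finite C] {W : Type*} [AddCommGroup W] [Module (ZMod p) W] [Finite W]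

theorem triv_of_fx {ρ : Representation (ZMod p) C W} {c : C} (h : fx ρ 1 ≤ fx ρ c) (w : W) :
    ρ c w = w := by
  rw [fx_one] at h
  have : (Fx ρ c).toAddSubgroup = ⊤ := AddSubgroup.eq_top_of_le_card _ h
  exact mem_Fx.1 (this.ge (AddSubgroup.mem_top w))

theorem fx_le (ρ : Representation (ZMod p) C W) (c : C) : fx ρ c ≤ fx ρ 1 :=
  Nat.le_of_dvd Nat.card_pos (fx_dvd ρ c)

theorem fx_le_mul (ρ : Representation (ZMod p) C W) {U U' : Submodule (ZMod p) W} (h : IsCompl U U')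
    (hU : ∀ g, U ≤ U.comap (ρ g)) (hU' : ∀ g, U' ≤ U'.comap (ρ g)) (c : C) :
    fx ρ c ≤ fx (ρ.subrepresentation U hU) c * fx (ρ.subrepresentation U' hU') c := by
  rw [fx, fx, fx, ← Nat.card_prod]
  refine Nat.card_le_card_of_surjective
    (fun x => ⟨x.1.1 + x.2.1, mem_Fx.2 (by
      rw [map_add]
      exact congrArg₂ _ (congrArg Subtype.val (mem_Fx.1 x.1.2))
        (congrArg Subtype.val (mem_Fx.1 x.2.2)))⟩) fun w => ?_
  obtain ⟨⟨u, u'⟩, e⟩ := (Submodule.prodEquivOfIsCompl U U' h).surjective w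
  rw [Submodule.coe_prodEquivOfIsCompl'] at e
  have h1 := mem_Fx.1 w.2
  rw [← e, map_add] at h1
  have h2 : (Submodule.prodEquivOfIsCompl U U' h) (⟨_, hU c u.2⟩, ⟨_, hU' c u'.2⟩) =
      (Submodule.prodEquivOfIsCompl U U' h) (u, u') := h1
  have h3 := (Submodule.prodEquivOfIsCompl U U' h).injective h2
  exact ⟨(⟨u, mem_Fx.2 (congrArg Prod.fst h3)⟩, ⟨u', mem_Fx.2 (congrArg Prod.snd h3)⟩),
    Subtype.ext e⟩

theorem root_selfdual (hM : IsPModular p M) (hC : ¬ p ∣ Nat.card C)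
    (ρ : Representation (ZMod p) C W) (B : LinearMap.BilinForm (ZMod p) W) (hB : B.Nondegenerate)
    (hi : ∀ c x y, B (ρ c x) (ρ c y) = B x y) :
    ∃ (π : C → ℕ) (Ω : C × Zp p → ℂ), Root M π Ω ∧ (∀ c, π c = π 1 → ∀ w, ρ c w = w) ∧
      ∀ c, π 1 * fx ρ c ≤ π c * Nat.card W := by
  classical
  obtain ⟨U, U', hc, hU, hU', ⟨A, hA, hAi, hAn⟩, ⟨S, hS, hSi, hSn⟩, h2⟩ :=
    S4966.result p hC ρ B hB hi
  let ρ₁ := ρ.subrepresentation U fun g u hu => hU g u hu
  let ρ₂ := ρ.subrepresentation U' fun g u hu => hU' g u hu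
  have hle : ∀ c, fx ρ c ≤ fx ρ₁ c * fx ρ₂ c := fx_le_mul ρ hc _ _
  have hcard : fx ρ₁ 1 * fx ρ₂ 1 = Nat.card W := by
    rw [fx_one, fx_one, ← Nat.card_prod]
    exact Nat.card_congr (Submodule.prodEquivOfIsCompl U U' hc).toEquiv
  have htriv : ∀ c, (∀ u, ρ₁ c u = u) → (∀ u, ρ₂ c u = u) → ∀ w, ρ c w = w := by
    intro c h1 h3 w
    obtain ⟨⟨u, u'⟩, rfl⟩ := (Submodule.prodEquivOfIsCompl U U' hc).surjective w
    rw [Submodule.coe_prodEquivOfIsCompl', map_add]
    exact congrArg₂ _ (congrArg Subtype.val (h1 u)) (congrArg Subtype.val (h3 u'))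
  have hA1 : (A.restrict U).IsAlt := fun x => hA x
  have hA2 : (A.restrict U).Nondegenerate := .ofSeparatingLeft fun x hx =>
    Subtype.ext (hAn x x.2 fun y hy => hx ⟨y, hy⟩)
  have hA3 : ∀ c x y, A.restrict U (ρ₁ c x) (ρ₁ c y) = A.restrict U x y :=
    fun c x y => hAi c x x.2 y y.2
  by_cases hp2 : p = 2
  · subst hp2
    have := Fintype.ofFinite C
    obtain ⟨Q, ⟨hQ, -⟩, -⟩ := S2619.result (Module.finBasis (ZMod 2) U) _ hA1 0
    obtain ⟨Ω, hΩ⟩ := root_gauss hM hC ρ₁ (∑ c, Q.comp (ρ₁ c)) (fun d w => by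
      simp only [QuadraticMap.sum_apply, QuadraticMap.comp_apply]
      rw [← Equiv.sum_comp (Equiv.mulRight d) fun c => Q (ρ₁ c w)]
      simp) (fun x hx => hA2.2 x fun y => by
      have h1 := hx y
      have h3 : ∀ c, Q (ρ₁ c (y + x)) - Q (ρ₁ c y) - Q (ρ₁ c x) = A.restrict U y x := fun c => by
        rw [← hA3 c, ← hQ, map_add]
        rfl
      simp only [QuadraticMap.polarBilin_apply_apply, QuadraticMap.polar, QuadraticMap.sum_apply,
        QuadraticMap.comp_apply, ← Finset.sum_sub_distrib, h3, Finset.sum_const, Finset.card_univ,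
        nsmul_eq_mul, ← Nat.card_eq_fintype_card] at h1
      exact (mul_eq_zero.1 h1).resolve_left fun h4 => hC ((ZMod.natCast_eq_zero_iff _ _).1 h4))
    refine ⟨_, Ω, hΩ, fun c h => htriv c (triv_of_fx h.ge) fun u => Subtype.ext (h2 rfl c u u.2),
      fun c => ?_⟩
    rw [← hcard]
    calc _ ≤ fx ρ₁ 1 * (fx ρ₁ c * fx ρ₂ 1) :=
          Nat.mul_le_mul_left _ ((hle c).trans (Nat.mul_le_mul_left _ (fx_le ρ₂ c)))
      _ = _ := by ring
  · have h20 : (2 : ZMod p) ≠ 0 := fun h =>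
      hp2 ((Nat.prime_dvd_prime_iff_eq hp.out Nat.prime_two).1
        ((ZMod.natCast_eq_zero_iff 2 p).1 (by exact_mod_cast h)))
    haveI := Fact.mk h20
    obtain ⟨Ω₁, h₁⟩ := root_weil hM ρ₁ _ hA1 hA2 hA3
    obtain ⟨Ω₂, h₂⟩ := root_gauss hM hC ρ₂ (S.restrict U').toQuadraticMap
      (fun c w => hSi c w w.2 w w.2) (fun x hx => Subtype.ext (hSn x x.2 fun y hy => by
        have h1 := hx ⟨y, hy⟩
        rw [LinearMap.BilinMap.polarBilin_toQuadraticMap] at h1
        have h3 : S y x + S x y = 0 := h1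
        rw [hS y x, ← two_mul] at h3
        exact (mul_eq_zero.1 h3).resolve_left h20))
    refine ⟨_, _, h₁.mul h₂, fun c h => ?_, fun c => ?_⟩
    · have a1 := fx_le ρ₁ c
      have a2 := fx_le ρ₂ c
      have b1 := h₁.pos c
      have b2 := h₂.pos c
      exact htriv c (triv_of_fx (by nlinarith)) (triv_of_fx (by nlinarith))
    · rw [hcard, mul_comm]
      exact Nat.mul_le_mul_right _ (hle c)

end Cfsg.Agent.H64.KV
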