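import Cfsg.Agent.H37.Spect
import Cfsg.Agent.H37.WEn
import Cfsg.Agent.H64.CycFac

/-! `E₇(2)` has no element of order `65`. -/

set_option autoImplicit false

namespace Cfsg.Agent.H64

open Cfsg.Lie Cfsg.Agent.H37 Cfsg.Agent.H38 Polynomial Matrix Finset

theorem pow_det_eq_one {l A : Type*} [Fintype l] [DecidableEq l] [CommGroup A] {M : Matrix l l ℤ} {c : l → A}
    (h : zact M c = 1) : c ^ M.det = 1 := by
  have := zact_mul M M.adjugate c
  rwa [mul_adjugate, zact_smul, zact_one, h, map_one] at this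

universe u

variable {D : ChevalleyDatum} [Chev D]

theorem orderOf_dvd_charpoly {k : Type*} [Field k] {w : Equiv.Perm (Fin D.nroots)} (hw : w ∈ (rs D).W) {q : ℤ}
    {c : Fin D.rank → kˣ} (hc : zact (q • wM w) c = c) : (orderOf c : ℤ) ∣ (wM w⁻¹).charpoly.eval q := by
  have h1 : zact ((q • wM w - 1) * wM w⁻¹) c = 1 := by
    rw [zact_mul, show zact (q • wM w - 1) c = 1 from (zact_sub_one _ c).2 hc, map_one]
  rw [sub_mul, smul_mul_assoc, ← wM_mul (inv_mem hw), inv_mul_cancel, wM_one, one_mul] at h1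
  rw [eval_charpoly, orderOf_dvd_iff_zpow_eq_one]
  convert pow_det_eq_one h1 using 3
  rw [scalar_apply, smul_one_eq_diagonal]

/-- The order of a semisimple element divides the order of a maximal torus. -/
theorem exists_orderOf_dvd_charpoly (hD : IsChev D) (F : Type u) [Field F] [Finite F] (p : ℕ) [Fact p.Prime]
    [CharP F p] (hA : H39.centT D (AlgebraicClosure F) = ⊥) {x : D.group F} (hx : (orderOf x).Coprime p) :
    ∃ w ∈ (rs D).W, (orderOf x : ℤ) ∣ (wM w).charpoly.eval (Nat.card F : ℤ) := by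
  obtain ⟨w, hw, c, hc, -, u, -, ⟨a, ha⟩, h⟩ := exists_jordan_group hD F p hA x
  have hu : u = 1 := by
    rw [← orderOf_eq_one_iff]
    exact Nat.eq_one_of_dvd_coprimes (hx.pow_right a)
      (orderOf_dvd_of_pow_eq_one ((h _).1 (pow_orderOf_eq_one x)).2) (orderOf_dvd_of_pow_eq_one ha)
  have h1 : orderOf x = orderOf c := by
    rw [orderOf_eq_orderOf_iff]
    exact fun m => by rw [h, hu, one_pow, and_iff_left rfl]
  exact ⟨w⁻¹, inv_mem hw, h1 ▸ orderOf_dvd_charpoly hw hc⟩

omit [Chev D] in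
theorem bf_sub_smul_right (x y z : Fin D.rank → ℤ) (e : ℤ) : bf x (e • y - z) = e * bf x y - bf x z := by
  simp only [bf, map_sub, map_smul, smul_eq_mul, mul_sub, sum_sub_distrib, mul_sum, mul_left_comm]

theorem not_65_dvd (h7 : D.rank = 7)
    (e7_bf : ∀ i < D.rank, sumLT D.nroots (fun r => D.pairing (D.simple i) r * D.pairing (D.simple i) r) = 72)
    (e7_even : ∀ b < D.nroots, ∀ j < D.rank, (∀ i < D.rank,
      (D.pairing b (D.simple i) + D.pairing (D.simple j) (D.simple i)) % 2 = 0) →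
      b = D.simple j ∨ b = D.neg (D.simple j))
    (e7_nbr : ∀ j < D.rank, ∃ i < D.rank, D.pairing (D.simple j) (D.simple i) = -1 ∧
      D.pairing (D.simple i) (D.simple j) = -1 ∧ D.pairing (D.neg (D.simple i)) (D.simple j) = 1 ∧
      D.pairing (D.simple i) (D.simple i) = 2 ∧ D.pairing (D.simple j) (D.simple j) = 2)
    (e7_neg : ∀ j < D.rank, ∀ i < D.rank, cor D (D.neg (D.simple j)) i = - cor D (D.simple j) i)
    {w : Equiv.Perm (Fin D.nroots)} (hw : w ∈ (rs D).W) : ¬ 65 ∣ (wM w).charpoly.eval 2 := fun h => by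
  obtain ⟨e, he, hχ⟩ := charpoly_of_65 (M := wM w) (by simpa using h7) (orderOf_pos w).ne'
    (by rw [← wM_pow hw, pow_orderOf_eq_one, wM_one]) h
  obtain ⟨P, hP⟩ : ∃ P, P = wM w ^ 6 + 1 := ⟨_, rfl⟩
  obtain ⟨h1, h2⟩ := minor_of_charpoly he hχ hP
  set sp := (rs D).sp
  have hU : (e • P - wM w ^ 3) * wM w ^ 3 = 1 := by
    have : P * wM w ^ 3 = e • P := by
      rw [pow_succ, pow_two, ← mul_assoc, ← mul_assoc, h1, smul_mul_assoc, h1, smul_smul, he, one_smul, h1]
    rw [sub_mul, smul_mul_assoc, this, smul_smul, he, one_smul, ← pow_add, hP, add_sub_cancel_left]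
  have hb : ∀ i y, bf (cv (sp i)) y = 36 * pr (sp i) y := fun i y => by
    have h3 := two_bf_cv (sp i) y
    have h4 : bf (cv (sp i)) (cv (sp i)) = 72 := by
      rw [← e7_bf i i.2, bf, sumLT_eq, ← Fin.sum_univ_eq_sum_range]
      exact sum_congr rfl fun r _ => by rw [pr_cv]; rfl
    rw [h4] at h3; omega
  have hs : ∀ x y, bf x (y ᵥ* P) = e * (bf (x ᵥ* wM w ^ 3) y + bf x (y ᵥ* wM w ^ 3)) := fun x y => by
    have h3 := bf_wM (pow_mem hw 3) x (y ᵥ* (e • P - wM w ^ 3))
    rw [wM_pow hw, vecMul_vecMul, hU, vecMul_one, vecMul_sub, vecMul_smul, bf_sub_smul_right] at h3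
    rw [h3]; linear_combination (- bf x (y ᵥ* P)) * he
  have hrow : ∀ j, cv (sp j) ᵥ* P = P j := fun j => by rw [cv_sp, single_one_vecMul]; rfl
  let a : Fin D.rank → Fin D.rank → ℤ := fun i j => pr (sp i) (P j)
  have a1 : ∀ i j, a i j = a j i := fun i j => by
    have h3 := hs (cv (sp i)) (cv (sp j))
    have h4 := hs (cv (sp j)) (cv (sp i))
    rw [hrow, hb, bf_comm (_ ᵥ* _)] at h3 h4
    rw [add_comm, ← h3] at h4
    simp only [a]; omega
  have a2 : ∀ i, 2 ∣ a i i := fun i => by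
    have h3 := hs (cv (sp i)) (cv (sp i))
    rw [hrow, hb, bf_comm (_ ᵥ* _), hb] at h3
    exact ⟨e * pr (sp i) (cv (sp i) ᵥ* wM w ^ 3), by simp only [a]; linarith⟩
  have a3 : ∀ i j, a i i * a j j = a j i * a i j := fun i j => by
    simp only [a, pr_apply, sum_mul_sum]
    rw [sum_comm]
    refine sum_congr rfl fun k _ => sum_congr rfl fun l _ => ?_
    linear_combination (D.cartan l (sp i) * D.cartan k (sp j)) * h2 i j l k
  have a4 : ∀ i j, 2 ∣ a i j := fun i j => by
    refine Int.prime_two.dvd_of_dvd_pow (n := 2) ?_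
    rw [pow_two]; nth_rewrite 1 [a1]
    rw [← a3]; exact (a2 i).mul_right _
  have hPj : ∀ j, P j = cv ((w ^ 6) (sp j)) + cv (sp j) := fun j => by
    rw [← hrow, hP, vecMul_add, vecMul_one, ← wM_pow hw, cv_wM (pow_mem hw 6)]
  have a5 : ∀ i j, a i j = D.pairing ((w ^ 6) (sp j)) (D.simple i) +
      D.pairing (D.simple j) (D.simple i) := fun i j => by
    simp only [a, hPj, map_add, pr_cv]; rfl
  have a6 := fun j : Fin D.rank => e7_even _ ((w ^ 6) (sp j)).2 j j.2 fun i hi => by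
    have := a4 ⟨i, hi⟩ j
    rw [a5] at this
    exact Int.emod_eq_zero_of_dvd this
  have a7 : ∀ j : Fin D.rank, ((w ^ 6) (sp j) : ℕ) = D.neg (D.simple j) := fun j => by
    refine (a6 j).resolve_left fun hj => ?_
    obtain ⟨i, hi, c1, c2, c3, c4, c5⟩ := e7_nbr j j.2
    have b1 := a1 ⟨i, hi⟩ j
    have b3 := a3 ⟨i, hi⟩ j
    simp only [a5, hj] at b1 b3
    rcases a6 ⟨i, hi⟩ with hi' | hi' <;> simp only [hi', c1, c2, c3, c4, c5] at b1 b3 <;> omega
  have a8 : wM w ^ 6 = -1 := by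
    rw [← wM_pow hw, ← wM_one (D := D)]
    ext j i
    change cor D ((w ^ 6) (sp j)) i = - cor D (D.simple j) i
    rw [a7, e7_neg j j.2 i i.2]
  have a9 := congrArg det a8
  rw [det_pow, det_neg, det_one, Fintype.card_fin, show (-1 : ℤ) ^ D.rank = -1 by rw [h7]; rfl] at a9
  have := Even.pow_nonneg (by decide : Even 6) (wM w).det
  omega

theorem e7_bf : ∀ i < chevE7.rank, sumLT chevE7.nroots (fun r =>
    chevE7.pairing (chevE7.simple i) r * chevE7.pairing (chevE7.simple i) r) = 72 := by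
  decide +kernel

theorem e7_even : ∀ b < chevE7.nroots, ∀ j < chevE7.rank, (∀ i < chevE7.rank,
    (chevE7.pairing b (chevE7.simple i) + chevE7.pairing (chevE7.simple j) (chevE7.simple i)) % 2 = 0) →
    b = chevE7.simple j ∨ b = chevE7.neg (chevE7.simple j) := by
  decide +kernel

theorem e7_nbr : ∀ j < chevE7.rank, ∃ i < chevE7.rank, chevE7.pairing (chevE7.simple j) (chevE7.simple i) = -1 ∧
    chevE7.pairing (chevE7.simple i) (chevE7.simple j) = -1 ∧
    chevE7.pairing (chevE7.neg (chevE7.simple i)) (chevE7.simple j) = 1 ∧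
    chevE7.pairing (chevE7.simple i) (chevE7.simple i) = 2 ∧
    chevE7.pairing (chevE7.simple j) (chevE7.simple j) = 2 := by
  decide +kernel

theorem e7_neg : ∀ j < chevE7.rank, ∀ i < chevE7.rank,
    cor chevE7 (chevE7.neg (chevE7.simple j)) i = - cor chevE7 (chevE7.simple j) i := by
  decide +kernel

theorem e7_two_no65 (x : chevE7.group (ZMod 2)) : orderOf x ≠ 65 := fun hx => by
  have hD : IsChev chevE7 := by simp
  obtain ⟨_⟩ := nonempty_chev hD
  obtain ⟨w, hw, h⟩ := exists_orderOf_dvd_charpoly hD (ZMod 2) 2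
    (centT_eq_bot_of hasInv_E7 (units_pow_char 2)) (x := x) (by rw [hx]; norm_num)
  rw [hx, Nat.card_zmod] at h
  exact not_65_dvd rfl e7_bf e7_even e7_nbr e7_neg hw h

end Cfsg.Agent.H64
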