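import Cfsg.Agent.H67.PGraph
import Cfsg.Agent.H67.UnitaryEig
import Cfsg.Agent.H85.Tori
import Cfsg.Agent.H10.Isotropic

/-! Elements of order `65` in some classical groups over the fields with `8` and `64` elements. -/

set_option autoImplicit false

namespace Cfsg.Agent.H64

open Cfsg.Agent.H67 Matrix

theorem charP_two_of_card {F : Type*} [Field F] [Fintype F] {n : ℕ} (h : Fintype.card F = 2 ^ n) : CharP F 2 := by
  obtain ⟨p, hp⟩ := CharP.exists F
  obtain ⟨m, hpp, hm⟩ := FiniteField.card F p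
  have : p ∣ 2 ^ n := by rw [← h, hm]; exact dvd_pow_self p m.ne_zero
  rwa [(Nat.prime_dvd_prime_iff_eq hpp Nat.prime_two).1 (hpp.dvd_of_dvd_pow this)] at hp

theorem exists_root65 (F : Type*) [Field F] [CharP F 2] : ∃ x : AlgebraicClosure F, orderOf x = 65 :=
  exists_root fun h => by
    have := (CharP.cast_eq_zero_iff (AlgebraicClosure F) 2 65).1 h
    omega

theorem pow_eq_one_of_ev {F Ω ι : Type*} [Field F] [Field Ω] [Algebra F Ω] [IsAlgClosed Ω] [Fintype ι]
    [DecidableEq ι] {A : Matrix ι ι F} (hA : H66.IsSS A) {x : Ω} (h1 : x ∈ ev Ω A) (h2 : ∀ y ∈ ev Ω A, ∃ i : ℕ, y = x ^ i)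
    (k : ℕ) : A ^ k = 1 ↔ x ^ k = 1 := by
  have := IsSS_pow_eq_smul_iff (Ω := Ω) hA k 1
  rw [one_smul, map_one] at this
  refine this.trans ⟨fun h => h x h1, fun h y hy => ?_⟩
  obtain ⟨i, rfl⟩ := h2 y hy
  rw [← pow_mul, mul_comm, pow_mul, h, one_pow]

theorem pow_mod65 {Ω : Type*} [Field Ω] {x : Ω} (hx : orderOf x = 65) (a : ℕ) : x ^ a = x ^ (a % 65) := by
  rw [← hx, pow_mod_orderOf]

theorem sl_center_pow {F : Type*} [Field F] {n : ℕ} :
    ∀ z ∈ Subgroup.center (SpecialLinearGroup (Fin n) F), z ^ n = 1 := fun z hz => by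
  obtain ⟨r, h1, h2⟩ := Matrix.SpecialLinearGroup.mem_center_iff.1 hz
  rw [Fintype.card_fin] at h1
  exact Subtype.ext (by rw [Matrix.SpecialLinearGroup.coe_pow, ← h2, ← map_pow, h1, map_one]; rfl)

variable {F : Type*} [Field F] [Fintype F]

theorem psl2_65 (h : Fintype.card F = 64) : ∃ g : ProjectiveSpecialLinearGroup (Fin 2) F, orderOf g = 65 := by
  have := charP_two_of_card (n := 6) h
  obtain ⟨x, hx⟩ := exists_root65 F
  obtain ⟨g, h1, h2⟩ := exists_sl_ev_eq (F := F) (ι := Fin 2) (s := {x ^ 1, x ^ 64}) (by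
    simp only [h, Multiset.insert_eq_cons, Multiset.map_cons, Multiset.map_singleton, ← pow_mul, pow_mod65 hx (_ * _)]
    exact Multiset.cons_swap _ _ 0) (by simp) (by
    simp only [Multiset.insert_eq_cons, Multiset.prod_cons, Multiset.prod_singleton, ← pow_add, pow_mod65 hx (_ + _)]
    simp)
  refine (mem_range_orderOf_mk_iff sl_center_pow (by norm_num)).2 ⟨g, ?_⟩
  rw [← hx, orderOf_eq_orderOf_iff]
  refine fun k => Subtype.ext_iff.trans (pow_eq_one_of_ev h1 (by simp [h2]) (fun y hy => ?_) k)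
  simp only [h2, Multiset.insert_eq_cons, Multiset.mem_cons, Multiset.mem_singleton] at hy
  rcases hy with rfl | rfl <;> exact ⟨_, rfl⟩

theorem psl4_65 (h : Fintype.card F = 8) : ∃ g : ProjectiveSpecialLinearGroup (Fin 4) F, orderOf g = 65 := by
  have := charP_two_of_card (n := 3) h
  obtain ⟨x, hx⟩ := exists_root65 F
  obtain ⟨g, h1, h2⟩ := exists_sl_ev_eq (F := F) (ι := Fin 4) (s := {x ^ 1, x ^ 8, x ^ 64, x ^ 57}) (by
    simp only [h, Multiset.insert_eq_cons, Multiset.map_cons, Multiset.map_singleton, ← pow_mul, pow_mod65 hx (_ * _)]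
    norm_num
    simp only [← Multiset.singleton_add]; abel) (by simp) (by
    simp only [Multiset.insert_eq_cons, Multiset.prod_cons, Multiset.prod_singleton, ← pow_add, pow_mod65 hx (_ + _)]
    simp)
  refine (mem_range_orderOf_mk_iff sl_center_pow (by norm_num)).2 ⟨g, ?_⟩
  rw [← hx, orderOf_eq_orderOf_iff]
  refine fun k => Subtype.ext_iff.trans (pow_eq_one_of_ev h1 (by simp [h2]) (fun y hy => ?_) k)
  simp only [h2, Multiset.insert_eq_cons, Multiset.mem_cons, Multiset.mem_singleton] at hy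
  rcases hy with rfl | rfl | rfl | rfl <;> exact ⟨_, rfl⟩

theorem sp4_65 (h : Fintype.card F = 8) : ∃ g : symplecticGroup (Fin 2) F, orderOf g = 65 := by
  have := charP_two_of_card (n := 3) h
  obtain ⟨x, hx⟩ := exists_root65 F
  have h0 : x ≠ 0 := by
    rintro rfl
    have := pow_orderOf_eq_one (0 : AlgebraicClosure F)
    rw [hx] at this; simp at this
  obtain ⟨A, h1, h2⟩ := exists_pres_pm (F := F) true (d := 2) h0 (pow_ne_one_of_lt_orderOf (by norm_num) (by omega))
    (Or.inr (eq_inv_of_mul_eq_one_left (by rw [h, ← pow_succ, pow_mod65 hx]; simp))) two_pos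
  obtain ⟨g, hg⟩ := h1.exists_sp_pow (m := 2) (by simp)
  refine ⟨g, ?_⟩
  rw [← hx, orderOf_eq_orderOf_iff]
  intro k
  have := hg k 1
  rw [one_smul, one_smul, toLin'_pow_eq_one_iff, h2] at this
  exact Subtype.ext_iff.trans this

theorem psp4_65 (h : Fintype.card F = 8) : ∃ g : PSp 2 F, orderOf g = 65 :=
  (mem_range_orderOf_mk_iff (sp_center_sq (by norm_num)) (by norm_num)).2 (sp4_65 h)

theorem psp6_65 (h : Fintype.card F = 8) : ∃ g : PSp 3 F, orderOf g = 65 := by
  obtain ⟨g, hg⟩ := sp4_65 h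
  obtain ⟨φ, hφ⟩ := H85.emb_sp_add (R := F) 2 1 3 rfl
  refine (mem_range_orderOf_mk_iff (sp_center_sq (by norm_num)) (by norm_num)).2 ⟨φ (g, 1), ?_⟩
  rw [orderOf_injective φ hφ, Prod.orderOf_mk, orderOf_one, hg]; rfl

theorem psu4_65 (h : Fintype.card F = 64) : ∃ g : PSU 4 F 8, orderOf g = 65 := by
  have := charP_two_of_card (n := 6) h
  have : Fact (Fintype.card F = 8 ^ 2) := ⟨h⟩
  obtain ⟨x, hx⟩ := exists_root65 F
  have h0 : x ≠ 0 := by
    rintro rfl
    have := pow_orderOf_eq_one (0 : AlgebraicClosure F)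
    rw [hx] at this; simp at this
  have h8 : ∀ i : ℕ, (x ^ i) ^ (-((8 : ℕ) : ℤ)) = x ^ (i * 57) := fun i => by
    rw [_root_.zpow_neg, zpow_natCast]
    refine (eq_inv_of_mul_eq_one_left ?_).symm
    rw [← pow_mul, ← pow_add, ← mul_add, mul_comm, pow_mul, show 57 + 8 = 65 from rfl, ← hx, pow_orderOf_eq_one, one_pow]
  obtain ⟨B, h1, h2, h3⟩ := exists_isIsom_ev_eq (K := F) (q := 8) (n := 4) (s := {x ^ 1, x ^ 8, x ^ 64, x ^ 57}) (by
    simp only [h8, Multiset.insert_eq_cons, Multiset.map_cons, Multiset.map_singleton, pow_mod65 hx (_ * _)]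
    norm_num
    simp only [← Multiset.singleton_add]; abel) (by simp) (by simp [h0, h0.symm, eq_comm (a := (0 : AlgebraicClosure F))])
  have hd : B.det = 1 := (algebraMap F (AlgebraicClosure F)).injective (by
    rw [← prod_ev, h3]
    simp only [Multiset.insert_eq_cons, Multiset.prod_cons, Multiset.prod_singleton, ← pow_add, pow_mod65 hx (_ + _)]
    simp)
  refine (mem_range_orderOf_mk_iff (e := 1) (fun z hz => ?_) (by norm_num)).2 ⟨H10.mkSU B h1 hd, ?_⟩
  · have := H10.card_center_SU (F := F) (q := 8) (n := 4) (by norm_num)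
    rw [pow_one, ← Subgroup.mem_bot, ← Subgroup.card_eq_one.1 this]; exact hz
  rw [← hx, orderOf_eq_orderOf_iff]
  refine fun k => (Subtype.ext_iff.trans Subtype.ext_iff).trans (pow_eq_one_of_ev h2 (by simp [h3]) (fun y hy => ?_) k)
  simp only [h3, Multiset.insert_eq_cons, Multiset.mem_cons, Multiset.mem_singleton] at hy
  rcases hy with rfl | rfl | rfl | rfl <;> exact ⟨_, rfl⟩

end Cfsg.Agent.H64
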