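import Cfsg.Agent.H81.SubCount

/-! Subgroups of order `p ^ a` outside a Sylow subgroup are counted by a multiple of `p ^ 2`. -/

set_option autoImplicit false

namespace Cfsg.Agent.H64

open Subgroup H72

theorem dvd_sum_of_orbit {P Z : Type*} [Group P] [MulAction P Z] [Fintype Z] (w : Z → ℕ)
    (hw : ∀ (g : P) z, w (g • z) = w z) (m : ℕ)
    (h : ∀ z, m ∣ (MulAction.stabilizer P z).index * w z) : m ∣ ∑ z, w z := by
  classical
  have := Fintype.ofFinite (Quotient (MulAction.orbitRel P Z))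
  rw [← Finset.sum_fiberwise Finset.univ (Quotient.mk (MulAction.orbitRel P Z))]
  refine Finset.dvd_sum fun q _ => ?_
  induction q using Quotient.inductionOn with | h z => ?_
  have k : ∀ y, y ∈ Finset.univ.filter (fun y => Quotient.mk (MulAction.orbitRel P Z) y =
      Quotient.mk (MulAction.orbitRel P Z) z) ↔ y ∈ MulAction.orbit P z := fun y => by
    rw [Finset.mem_filter_univ, Quotient.eq]; rfl
  rw [Finset.sum_congr rfl (g := fun _ => w z), Finset.sum_const, smul_eq_mul]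
  · have := h z
    rwa [MulAction.index_stabilizer, ← Set.ext k, Set.ncard_coe_finset] at this
  · intro y hy
    obtain ⟨g, rfl⟩ := (k y).1 hy
    exact hw g z

variable {G : Type*} [Group G] [Finite G] {p : ℕ} [hp : Fact p.Prime]

theorem card_modEq_fix {R : Subgroup G} (hR : IsPGroup p R) (Q : Subgroup G → Prop)
    (hQ : ∀ g ∈ R, ∀ H, Q H → Q (cj g H)) :
    Nat.card {H // Q H} ≡ Nat.card {H // Q H ∧ R ≤ normalizer (H : Set G)} [MOD p] := by
  let : MulAction R {H // Q H} :=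
    { smul := fun g H => ⟨cj g H.1, hQ g g.2 _ H.2⟩
      one_smul := fun H => Subtype.ext (cj_one _)
      mul_smul := fun g h H => Subtype.ext (cj_mul _ _ _) }
  refine (hR.card_modEq_card_fixedPoints _).trans (Eq.subst (motive := fun n => _ ≡ n [MOD p]) ?_ rfl)
  exact Nat.card_congr ⟨fun H => ⟨H.1.1, H.1.2, fun g hg =>
      cj_eq_iff.1 (congrArg Subtype.val (H.2 ⟨g, hg⟩))⟩,
    fun H => ⟨⟨H.1, H.2.1⟩, fun g => Subtype.ext (cj_eq_iff.2 (H.2.2 g.2))⟩, fun _ => rfl, fun _ => rfl⟩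

omit [Finite G] in
theorem card_le_eq (K : Subgroup G) (n : ℕ) :
    Nat.card {H : Subgroup G // Nat.card H = n ∧ H ≤ K} = Nat.card {H : Subgroup K // Nat.card H = n} :=
  Nat.card_congr ⟨fun H => ⟨H.1.subgroupOf K,
      (Nat.card_congr (subgroupOfEquivOfLe H.2.2).toEquiv).trans H.2.1⟩,
    fun H => ⟨H.1.map K.subtype, by rw [card_map_of_injective K.subtype_injective, H.2], map_subtype_le _⟩,
    fun H => Subtype.ext (map_subgroupOf_eq_of_le H.2.2),
    fun H => Subtype.ext (comap_map_eq_self_of_injective K.subtype_injective _)⟩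

theorem eq_or_eq_of_card {R A B : Subgroup G} (h1 : R ≤ A) (h2 : A ≤ B)
    (h : Nat.card B = Nat.card R * p) : A = R ∨ A = B := by
  obtain ⟨d, hd⟩ := card_dvd_of_le h1
  have k := card_dvd_of_le h2
  rw [hd, h] at k
  rcases (Nat.dvd_prime hp.out).1 (Nat.dvd_of_mul_dvd_mul_left Nat.card_pos k) with rfl | rfl
  · exact Or.inl (eq_of_le_of_card_ge h1 (by rw [hd, mul_one])).symm
  · exact Or.inr (eq_of_le_of_card_ge h2 (by rw [hd, h]))

theorem sq_dvd_card_not_le (S : Sylow p G) {a : ℕ} (hd : p ^ (a + 1) ∣ Nat.card G) :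
    p ^ 2 ∣ Nat.card {H : Subgroup G // Nat.card H = p ^ a ∧ ¬ H ≤ S} := by
  classical
  have := Fintype.ofFinite (Subgroup G)
  have hle : ∀ K : Subgroup G, IsPGroup p K → (S : Subgroup G) ≤ normalizer (K : Set G) → K ≤ S :=
    fun K hK h => S.is_maximal' (isPGroup_sup_of_normalizes S.isPGroup' hK h) le_sup_left ▸ le_sup_right
  let f : Subgroup G → Subgroup G := fun H => H ⊔ (S : Subgroup G) ⊓ normalizer (H : Set G)
  let Q : Subgroup G → Subgroup G → Prop := fun K H => (Nat.card H = p ^ a ∧ ¬ H ≤ S) ∧ f H = K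
  have hf : ∀ {K H}, Q K H → IsPGroup p K ∧ ¬ K ≤ S := fun {K H} h => h.2 ▸
    ⟨isPGroup_sup_of_normalizes' (IsPGroup.of_card h.1.1) (S.isPGroup'.to_le inf_le_left) inf_le_right,
      fun k => h.1.2 (le_sup_left.trans k)⟩
  have hQ : ∀ g ∈ (S : Subgroup G), ∀ K H, Q K H → Q (cj g K) (cj g H) := fun g hg K H h =>
    ⟨⟨(card_cj _ _).trans h.1.1, fun k => h.1.2 ((cj_le_cj_iff g).1 (k.trans (cj_eq_of_mem hg).ge))⟩, by
      rw [← h.2]; simp only [f, cj_sup, cj_inf, cj_normalizer, cj_eq_of_mem hg]⟩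
  let : MulAction S (Subgroup G) :=
    { smul := fun g H => cj g H
      one_smul := fun H => cj_one _
      mul_smul := fun g h H => cj_mul _ _ _ }
  have e : Nat.card {H : Subgroup G // Nat.card H = p ^ a ∧ ¬ H ≤ S} = ∑ K, Nat.card {H // Q K H} := by
    simp only [Nat.card_eq_fintype_card, Fintype.card_subtype]
    rw [Finset.card_eq_sum_card_fiberwise (f := f) (t := Finset.univ) (fun _ _ => by simp)]
    simp only [Finset.filter_filter, Q]
  rw [e]
  refine dvd_sum_of_orbit (P := S) (fun K => Nat.card {H // Q K H}) (fun g K => Nat.card_congr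
    ⟨fun H => ⟨cj (g : G)⁻¹ H.1, by
      have := hQ _ (inv_mem g.2) (cj g K) _ H.2
      rwa [cj_inv_cj] at this⟩,
      fun H => ⟨cj g H.1, hQ _ g.2 _ _ H.2⟩, fun H => Subtype.ext (cj_cj_inv _ _),
      fun H => Subtype.ext (cj_inv_cj _ _)⟩) _ fun K => ?_
  set R : Subgroup G := (S : Subgroup G) ⊓ normalizer (K : Set G) with hR
  have hRp : IsPGroup p R := S.isPGroup'.to_le inf_le_left
  have e1 : MulAction.stabilizer S K = R.subgroupOf S := by
    ext g
    exact cj_eq_iff.trans (and_iff_right g.2).symm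
  obtain ⟨k, hk⟩ := S.isPGroup'.index (R.subgroupOf S)
  rw [e1, hk]
  rcases k with _ | _ | k
  · have : IsEmpty {H // Q K H} := ⟨fun H => (hf H.2).2 (hle K (hf H.2).1
      ((subgroupOf_eq_top.1 (index_eq_one.1 hk)).trans inf_le_right))⟩
    rw [Nat.card_of_isEmpty, mul_zero]
    exact dvd_zero _
  swap
  · exact (pow_dvd_pow p (by omega)).mul_right _
  rw [zero_add, pow_one, sq]
  refine Nat.mul_dvd_mul_left p ((Nat.modEq_zero_iff_dvd).1 ?_)
  refine (card_modEq_fix hRp (Q K) fun g hg H h => cj_eq_iff.2 hg.2 ▸ hQ g hg.1 K H h).trans ?_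
  rcases isEmpty_or_nonempty {H // Q K H ∧ R ≤ normalizer (H : Set G)} with h | ⟨⟨H₀, h₀, h₁⟩⟩
  · rw [Nat.card_of_isEmpty]
  have hRK : R ≤ K := h₀.2 ▸ (le_inf inf_le_left h₁).trans le_sup_right
  have cS : Nat.card S = Nat.card R * p := by
    rw [← card_mul_index (R.subgroupOf S), hk, Nat.card_congr (subgroupOfEquivOfLe inf_le_left).toEquiv,
      zero_add, pow_one]
  have cK : Nat.card K = Nat.card R * p := by
    obtain ⟨T, hT⟩ := (hf h₀).1.exists_le_sylow
    have cT : Nat.card T = Nat.card R * p := (Nat.card_congr (T.equiv S).toEquiv).trans cS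
    rcases eq_or_eq_of_card hRK hT cT with k | k
    · exact absurd (k.le.trans inf_le_left) (hf h₀).2
    · rw [k, cT]
  have dR : p ^ a ∣ Nat.card R := by
    have := S.pow_dvd_card_of_pow_dvd_card hd
    rw [cS, pow_succ] at this
    exact Nat.dvd_of_mul_dvd_mul_right hp.out.pos this
  have e2 : Nat.card {H // Q K H ∧ R ≤ normalizer (H : Set G)} =
      Nat.card {H : Subgroup G // ((Nat.card H = p ^ a ∧ H ≤ K) ∧ ¬ H ≤ R) ∧ R ≤ normalizer (H : Set G)} := by
    refine Nat.card_congr (Equiv.subtypeEquivRight fun H => and_congr_left fun h => ⟨fun k =>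
      ⟨⟨k.1.1, k.2 ▸ le_sup_left⟩, fun l => k.1.2 (l.trans inf_le_left)⟩, fun k => ?_⟩)
    have n : ¬ H ≤ S := fun l => k.2 (le_inf l (k.1.2.trans le_normalizer))
    refine ⟨⟨k.1.1, n⟩, ?_⟩
    rcases eq_or_eq_of_card (le_inf inf_le_left h) inf_le_left cS with l | l
    · change H ⊔ _ = K
      rw [l]
      exact (eq_or_eq_of_card le_sup_right (sup_le k.1.2 hRK) cK).resolve_left
        fun m => k.2 (le_sup_left.trans m.le)
    · exact absurd (hle H (IsPGroup.of_card k.1.1) (l.ge.trans inf_le_right)) n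
  rw [e2]
  refine (card_modEq_fix hRp _ fun g hg H h => ⟨⟨(card_cj _ _).trans h.1.1, cj_le_of_mem (hRK hg) h.1.2⟩,
    fun k => h.2 ((cj_le_cj_iff g).1 (k.trans (cj_eq_of_mem hg).ge))⟩).symm.trans ?_
  have e3 := H81.card_add_card_not (fun H : Subgroup G => Nat.card H = p ^ a ∧ H ≤ K) (fun H => H ≤ R)
  have e4 : Nat.card {H : Subgroup G // (Nat.card H = p ^ a ∧ H ≤ K) ∧ H ≤ R} ≡ 1 [MOD p] := by
    rw [Nat.card_congr (Equiv.subtypeEquivRight (q := fun H : Subgroup G => Nat.card H = p ^ a ∧ H ≤ R)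
      fun H => ⟨fun k => ⟨k.1.1, k.2⟩, fun k => ⟨⟨k.1, k.2.trans hRK⟩, k.2⟩⟩), card_le_eq]
    exact H81.card_subgroups_modEq_one dR
  have e5 := H81.card_subgroups_modEq_one (dR.trans (card_dvd_of_le hRK))
  rw [← card_le_eq, ← e3] at e5
  exact Nat.ModEq.add_left_cancel e4 e5

end Cfsg.Agent.H64
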