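import Mathlib
import Cfsg.Agent.H24.PermModule
import Cfsg.Agent.H34.JBF1

set_option autoImplicit false

namespace Cfsg.Agent.H64
open Module MulAction

variable {S : Type*} [Group S] {K : Type*} [Field K]

/-- characters of a normal subgroup, with the conjugation action -/
structure Ch (A : Subgroup S) (K : Type*) [Field K] where
  f : A →* K

variable {A : Subgroup S} [A.Normal]

instance : MulAction S (Ch A K) where
  smul g χ := ⟨χ.f.comp (MulAut.conjNormal g⁻¹).toMonoidHom⟩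
  one_smul χ := by
    change Ch.mk _ = χ
    cases χ; congr 1; ext a; simp
  mul_smul g h χ := by
    change Ch.mk _ = Ch.mk _
    congr 1; ext a
    change χ.f _ = χ.f _
    simp

theorem Ch.smul_f (g : S) (χ : Ch A K) (a : A) :
    (g • χ).f a = χ.f (MulAut.conjNormal g⁻¹ a) := rfl

variable {V : Type*} [AddCommGroup V] [Module K V] [Fintype A]

/-- unnormalised projection to a weight space -/
noncomputable def wpr (σ : Representation K S V) (χ : Ch A K) : End K V :=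
  ∑ a : A, χ.f a⁻¹ • σ a

variable (σ : Representation K S V)

theorem wpr_conj (g : S) (χ : Ch A K) (v : V) : σ g (wpr σ χ v) = wpr σ (g • χ) (σ g v) := by
  simp only [wpr, LinearMap.sum_apply, LinearMap.smul_apply, map_sum, map_smul]
  refine Fintype.sum_equiv (MulAut.conjNormal g).toEquiv _ _ fun a => ?_
  have e1 : (g • χ).f ((MulAut.conjNormal g).toEquiv a)⁻¹ = χ.f a⁻¹ := by
    rw [Ch.smul_f]; congr 1; ext; simp
  rw [e1, ← Module.End.mul_apply, ← Module.End.mul_apply, ← map_mul, ← map_mul]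
  congr 3; simp

omit [A.Normal] in
theorem wpr_wt (χ : Ch A K) (v : V) (b : A) : σ b (wpr σ χ v) = χ.f b • wpr σ χ v := by
  simp only [wpr, LinearMap.sum_apply, LinearMap.smul_apply, map_sum, map_smul, Finset.smul_sum]
  refine Fintype.sum_equiv (Equiv.mulLeft b) _ _ fun a => ?_
  rw [smul_smul, ← map_mul, ← Module.End.mul_apply, ← map_mul]
  simp only [Equiv.coe_mulLeft, Subgroup.coe_mul, mul_inv_rev]
  congr 1
  rw [map_mul, map_mul, mul_comm, mul_assoc, ← map_mul]; simp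

omit [A.Normal] in
theorem wpr_of_wt (χ ψ : Ch A K) {w : V} (h : ∀ b : A, σ b w = ψ.f b • w) :
    wpr σ χ w = (∑ a : A, χ.f a⁻¹ * ψ.f a) • w := by
  simp only [wpr, LinearMap.sum_apply, LinearMap.smul_apply, h, smul_smul, Finset.sum_smul]

omit [A.Normal] in
theorem wpr_self (χ : Ch A K) {w : V} (h : ∀ b : A, σ b w = χ.f b • w) :
    wpr σ χ w = (Nat.card A : K) • w := by
  rw [wpr_of_wt σ χ χ h]; simp only [← map_mul, inv_mul_cancel, map_one]; simp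

omit [A.Normal] in
theorem wpr_ne {χ ψ : Ch A K} (hne : χ ≠ ψ) {w : V} (h : ∀ b : A, σ b w = ψ.f b • w) :
    wpr σ χ w = 0 := by
  rw [wpr_of_wt σ χ ψ h]
  let f : A →* K :=
    { toFun := fun a => χ.f a⁻¹ * ψ.f a
      map_one' := by simp
      map_mul' := fun a b => by simp only [mul_inv_rev, map_mul]; ring }
  have : f ≠ 1 := fun k => hne (by
    cases χ with | mk c => ?_
    cases ψ with | mk d => ?_
    congr 1; ext a
    have e : c a⁻¹ * d a = 1 := DFunLike.congr_fun k a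
    calc c a = c a * (c a⁻¹ * d a) := by rw [e, mul_one]
      _ = d a := by rw [← mul_assoc, ← map_mul]; simp)
  have e := sum_hom_units_eq_zero f this
  change ∑ a : A, χ.f a⁻¹ * ψ.f a = 0 at e
  rw [e, zero_smul]

theorem exists_wpr_ne [IsAlgClosed K] [FiniteDimensional K V]
    (hA : ∀ x ∈ A, ∀ y ∈ A, x * y = y * x) (hc : (Nat.card A : K) ≠ 0) {v : V} (hv : v ≠ 0) :
    ∃ χ : Ch A K, wpr σ χ v ≠ 0 := by
  by_contra! k
  let U : Submodule K V := ⨅ χ : Ch A K, LinearMap.ker (wpr σ χ)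
  have mU : ∀ w, w ∈ U ↔ ∀ χ : Ch A K, wpr σ χ w = 0 := fun w => by simp [U]
  obtain ⟨w, hw, he⟩ := H34.exists_eigV (σ := σ) hA U
    ((Submodule.ne_bot_iff _).2 ⟨v, (mU v).2 k, hv⟩) fun t _ y hy => (mU _).2 fun χ => by
      have := wpr_conj σ t (t⁻¹ • χ) y
      rw [smul_inv_smul, (mU y).1 hy, map_zero] at this
      exact this.symm
  obtain ⟨χ, hχ⟩ := he.exists_wt
  have := wpr_self σ ⟨χ⟩ hχ
  rw [(mU w).1 hw] at this
  exact he.1 ((smul_eq_zero.1 this.symm).resolve_left hc)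

theorem wpr_smul_ne {g : S} {χ : Ch A K} {v : V} (h : wpr σ χ v ≠ 0) :
    wpr σ (g • χ) (σ g v) ≠ 0 := by
  rw [← wpr_conj]
  intro k
  apply h
  have := congrArg (σ g⁻¹) k
  rwa [← Module.End.mul_apply, ← map_mul, inv_mul_cancel, map_one, map_zero] at this

theorem exists_orbit_vec [Finite S] [IsAlgClosed K] [FiniteDimensional K V] {p : ℕ} [Fact p.Prime]
    [CharP K p] (hA : ∀ x ∈ A, ∀ y ∈ A, x * y = y * x) (hc : (Nat.card A : K) ≠ 0)
    {R : Subgroup S} (hR : IsPGroup p R) {χ : Ch A K} (hχ : wpr σ χ ≠ 0) :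
    ∃ v, (∀ s ∈ R, σ s v = v) ∧ ∀ ψ, wpr σ ψ v ≠ 0 ↔ ψ ∈ orbit R χ := by
  let U : Submodule K V := ⨅ ψ : {ψ : Ch A K // ψ ∉ orbit R χ}, LinearMap.ker (wpr σ ψ.1)
  have mU : ∀ w, w ∈ U ↔ ∀ ψ : Ch A K, ψ ∉ orbit R χ → wpr σ ψ w = 0 := fun w => by simp [U]
  obtain ⟨w, hw⟩ : ∃ w, wpr σ χ w ≠ 0 := by
    by_contra! k; exact hχ (LinearMap.ext k)
  obtain ⟨v, hv, h0, hf⟩ := H24.exists_fixed_vector hR (σ.comp R.subtype) U
    (fun t y hy => (mU _).2 fun ψ hψ => by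
      have := wpr_conj σ t ((t : S)⁻¹ • ψ) y
      rw [smul_inv_smul, (mU y).1 hy, map_zero] at this
      · exact this.symm
      · intro k
        apply hψ
        have := mapsTo_smul_orbit t χ k
        simpa [Subgroup.smul_def] using this)
    ((Submodule.ne_bot_iff _).2 ⟨_, (mU _).2 fun ψ hψ =>
      wpr_ne σ (fun k : ψ = χ => hψ (k ▸ mem_orbit_self _)) (wpr_wt σ χ w), hw⟩)
  have hf' : ∀ s ∈ R, σ s v = v := fun s hs => hf ⟨s, hs⟩
  refine ⟨v, hf', fun ψ => ⟨fun k => by_contra fun k' => k ((mU v).1 hv ψ k'), fun k => ?_⟩⟩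
  obtain ⟨φ, hφ⟩ := exists_wpr_ne σ hA hc h0
  have h1 : φ ∈ orbit R χ := by_contra fun k' => hφ ((mU v).1 hv φ k')
  have h2 : ψ ∈ orbit R φ := by rw [orbit_eq_iff.2 h1]; exact k
  obtain ⟨r, rfl⟩ := h2
  have := wpr_smul_ne σ (g := r) hφ
  rwa [hf' _ r.2] at this

theorem dvd_ncard_of_inv {q : ℕ} [Fact q.Prime] {Q : Subgroup S} (hQ : IsPGroup q Q)
    (hfix : ∀ χ : Ch A K, (∀ x ∈ Q, x • χ = χ) → wpr σ χ = 0) {Y : Set (Ch A K)}
    (h1 : ∀ χ ∈ Y, wpr σ χ ≠ 0) (h2 : ∀ x ∈ Q, ∀ χ ∈ Y, x • χ ∈ Y) : q ∣ Nat.card Y := by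
  by_contra k
  let Z : SubMulAction Q (Ch A K) := ⟨Y, fun c _ h => h2 c c.2 _ h⟩
  obtain ⟨z, hz⟩ := hQ.nonempty_fixed_point_of_prime_not_dvd_card Z k
  exact h1 z.1 z.2 (hfix _ fun x hx => congrArg Subtype.val (hz ⟨x, hx⟩))

theorem two_three [Finite S] [IsAlgClosed K] [FiniteDimensional K V] [Nontrivial V] [CharP K 2]
    (hA : ∀ x ∈ A, ∀ y ∈ A, x * y = y * x) (hc : (Nat.card A : K) ≠ 0)
    {R : Subgroup S} (hR : IsPGroup 2 R) {q : ℕ} [hq : Fact q.Prime] (hq2 : q ≠ 2) {Q : Subgroup S}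
    (hQ : IsPGroup q Q) (hfix : ∀ χ : Ch A K, (∀ x ∈ Q, x • χ = χ) → wpr σ χ = 0)
    (D : Submodule K V) (hD : ∀ v, (∀ s ∈ R, σ s v = v) → v ∈ D) :
    2 ≤ finrank K D ∧
      ((∀ x ∈ Q, ∀ v, (∀ s ∈ R, σ s v = v) → σ x v ∈ D) → 3 ≤ finrank K D) := by
  have nd : ∀ n, ¬ q ∣ 2 ^ n := fun n k =>
    hq2 ((Nat.prime_dvd_prime_iff_eq hq.out Nat.prime_two).1 (hq.out.dvd_of_dvd_pow k))
  have ne0 : ∀ {ψ : Ch A K} {v}, wpr σ ψ v ≠ 0 → wpr σ ψ ≠ 0 := fun h k => h (by rw [k]; rfl)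
  obtain ⟨w, hw⟩ := exists_ne (0 : V)
  obtain ⟨χ₁, hχ₁⟩ := exists_wpr_ne σ hA hc hw
  obtain ⟨v₁, f₁, s₁⟩ := exists_orbit_vec σ hA hc hR (ne0 hχ₁)
  have fin₁ : (orbit R χ₁).Finite := Set.finite_range _
  have := fin₁.to_subtype
  obtain ⟨n, hn⟩ := hR.card_orbit χ₁
  obtain ⟨x, hx, ψ, hψ, hxψ⟩ : ∃ x ∈ Q, ∃ ψ ∈ orbit R χ₁, x • ψ ∉ orbit R χ₁ := by
    by_contra! k
    exact nd n (hn ▸ dvd_ncard_of_inv σ hQ hfix (fun φ h => ne0 ((s₁ φ).2 h)) k)
  have hχ₂ := wpr_smul_ne σ (g := x) ((s₁ ψ).2 hψ)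
  set χ₂ := x • ψ with e₂
  obtain ⟨v₂, f₂, s₂⟩ := exists_orbit_vec σ hA hc hR (ne0 hχ₂)
  have dj : ∀ φ ∈ orbit R χ₂, φ ∉ orbit R χ₁ := fun φ h h' => hxψ (by
    rw [← orbit_eq_iff.2 h', orbit_eq_iff.2 h]; exact mem_orbit_self _)
  have z₁ : ∀ φ, φ ∉ orbit R χ₁ → wpr σ φ v₁ = 0 := fun φ h => by_contra fun k => h ((s₁ φ).1 k)
  have z₂ : ∀ φ, φ ∉ orbit R χ₂ → wpr σ φ v₂ = 0 := fun φ h => by_contra fun k => h ((s₂ φ).1 k)
  have li : LinearIndependent K ![v₁, v₂] := by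
    rw [LinearIndependent.pair_iff]
    intro a b h
    have a1 := congrArg (wpr σ χ₁) h
    have a2 := congrArg (wpr σ χ₂) h
    rw [map_add, map_smul, map_smul, map_zero] at a1 a2
    rw [z₂ χ₁ fun k => dj _ k (mem_orbit_self _), smul_zero, add_zero, smul_eq_zero] at a1
    rw [z₁ χ₂ hxψ, smul_zero, zero_add, smul_eq_zero] at a2
    exact ⟨a1.resolve_right ((s₁ _).2 (mem_orbit_self _)),
      a2.resolve_right ((s₂ _).2 (mem_orbit_self _))⟩
  have le : Submodule.span K (Set.range ![v₁, v₂]) ≤ D := by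
    rw [Submodule.span_le]
    rintro _ ⟨i, rfl⟩
    fin_cases i
    · exact hD _ f₁
    · exact hD _ f₂
  have fr : finrank K (Submodule.span K (Set.range ![v₁, v₂])) = 2 := by
    rw [finrank_span_eq_card li]; rfl
  have h2 : 2 ≤ finrank K D := fr ▸ Submodule.finrank_mono le
  refine ⟨h2, fun hinv => ?_⟩
  by_contra h3
  have eD := Submodule.eq_of_le_of_finrank_le le (by omega)
  have rep : ∀ u ∈ D, ∃ a b : K, a • v₁ + b • v₂ = u := fun u hu => by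
    rw [← eD, Matrix.range_cons, Matrix.range_cons, Matrix.range_empty, Set.union_empty,
      Set.singleton_union, Submodule.mem_span_pair] at hu
    exact hu
  have sub : ∀ u ∈ D, ∀ φ, wpr σ φ u ≠ 0 → φ ∈ orbit R χ₁ ∪ orbit R χ₂ := fun u hu φ h => by
    obtain ⟨a, b, rfl⟩ := rep u hu
    by_contra k
    rw [Set.mem_union, not_or] at k
    apply h
    rw [map_add, map_smul, map_smul, z₁ _ k.1, z₂ _ k.2]; simp
  have dv := dvd_ncard_of_inv σ hQ hfix (Y := orbit R χ₁ ∪ orbit R χ₂)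
    (fun φ h => h.elim (fun h => ne0 ((s₁ φ).2 h)) fun h => ne0 ((s₂ φ).2 h))
    fun y hy φ h => h.elim
      (fun h => sub _ (hinv y hy _ f₁) _ (wpr_smul_ne σ ((s₁ φ).2 h)))
      fun h => sub _ (hinv y hy _ f₂) _ (wpr_smul_ne σ ((s₂ φ).2 h))
  obtain ⟨a, b, hab⟩ := rep _ (hinv x hx _ f₁)
  have sx : ∀ φ, wpr σ φ (σ x v₁) ≠ 0 ↔ φ ∈ (fun φ => x • φ) '' orbit R χ₁ := fun φ => by
    constructor
    · intro h
      refine ⟨x⁻¹ • φ, (s₁ _).1 ?_, smul_inv_smul _ _⟩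
      have := wpr_smul_ne σ (g := x⁻¹) h
      rwa [← Module.End.mul_apply (σ x⁻¹), ← map_mul, inv_mul_cancel, map_one] at this
    · rintro ⟨φ, h, rfl⟩
      exact wpr_smul_ne σ ((s₁ φ).2 h)
  have fin₂ : (orbit R χ₂).Finite := Set.finite_range _
  have cx : ((fun φ => x • φ) '' orbit R χ₁).ncard = (orbit R χ₁).ncard :=
    Set.ncard_image_of_injective _ (MulAction.injective x)
  have ha : a = 0 := by
    by_contra ha
    have : orbit R χ₁ ⊆ (fun φ => x • φ) '' orbit R χ₁ := fun φ h => by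
      rw [← sx, ← hab, map_add, map_smul, map_smul, z₂ φ fun k => dj _ k h, smul_zero, add_zero]
      exact smul_ne_zero ha ((s₁ φ).2 h)
    have := Set.eq_of_subset_of_ncard_le this cx.le (fin₁.image _)
    exact hxψ (this ▸ ⟨ψ, hψ, rfl⟩)
  rw [ha, zero_smul, zero_add] at hab
  have hb : b ≠ 0 := by
    rintro rfl
    apply hχ₂
    rw [← hab, zero_smul, map_zero]
  have e : (fun φ => x • φ) '' orbit R χ₁ = orbit R χ₂ := Set.ext fun φ => by
    rw [← sx, ← hab, map_smul, ← s₂, ne_eq, smul_eq_zero, not_or]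
    exact ⟨fun h => h.2, fun h => ⟨hb, h⟩⟩
  rw [e] at cx
  rw [Nat.card_coe_set_eq] at hn dv
  rw [Set.ncard_union_eq (Set.disjoint_right.2 dj) fin₁ fin₂, cx, hn, ← two_mul, ← pow_succ'] at dv
  exact nd _ dv

end Cfsg.Agent.H64
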